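import Cfsg.Agent.H3.CoSimple

/-! The sign change group `V0` of order `2^12` in the Conway group and its normaliser. -/

set_option autoImplicit false

namespace C0
open Cfsg H3 MulAction

/-- the code as a type -/
abbrev W : Type := golayCode

instance instSMulW : SMul M24 W :=
  ⟨fun σ w => ⟨fun p => w.1 (σ.1⁻¹ p), (H2.mem_M24_iff_comp.1 (M24.inv_mem σ.2)) w.1 w.2⟩⟩

theorem smul_apply (σ : M24) (w : W) (p : GolayPt) : (σ • w).1 p = w.1 (σ.1⁻¹ p) := rfl

theorem smul_apply' (σ : M24) (w : W) (p : GolayPt) : (σ • w).1 (σ.1 p) = w.1 p := by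
  rw [smul_apply]; simp

theorem W_ext {v w : W} (h : ∀ p, v.1 p = w.1 p) : v = w := Subtype.ext (funext h)

instance instActW : DistribMulAction M24 W where
  one_smul _ := W_ext fun _ => rfl
  mul_smul _ _ _ := W_ext fun _ => rfl
  smul_zero _ := W_ext fun _ => rfl
  smul_add _ _ _ := W_ext fun _ => rfl

/-- the all-ones word -/
def all1 : W := ⟨1, one_mem_golay⟩

theorem all1_apply (p : GolayPt) : all1.1 p = 1 := rfl

theorem smul_all1 (σ : M24) : σ • all1 = all1 := W_ext fun _ => rfl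

theorem W_add_self (w : W) : w + w = 0 := W_ext fun p => by
  show w.1 p + w.1 p = 0
  rcases zmod2_cases (w.1 p) with h | h <;> rw [h] <;> rfl

theorem card_W : Nat.card W = 4096 := H2.card_golay

instance instFiniteW : Finite W := Nat.finite_of_card_ne_zero (by rw [card_W]; norm_num)

/-- the support -/
def supp (w : W) : Finset GolayPt := support₂ w.1

theorem mem_supp {w : W} {p : GolayPt} : p ∈ supp w ↔ w.1 p = 1 := by
  rw [supp, H2.mem_support₂]
  rcases zmod2_cases (w.1 p) with h | h <;> rw [h] <;> decide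

theorem supp_mem (w : W) : supp w ∈ GC := support_mem_GC.2 w.2

theorem supp_inj {v w : W} (h : supp v = supp w) : v = w :=
  Subtype.ext (H2.support₂_injective h)

theorem exists_supp {c : Finset GolayPt} (hc : c ∈ GC) : ∃ w : W, supp w = c :=
  ⟨⟨ind c, (mem_GC c).1 hc⟩, support_ind c⟩

theorem supp_smul (σ : M24) (w : W) : supp (σ • w) = (supp w).image σ.1 := by
  ext p
  obtain ⟨q, rfl⟩ := σ.1.surjective p
  rw [mem_supp, smul_apply', Function.Injective.mem_finset_image σ.1.injective, mem_supp]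

theorem card_supp_smul (σ : M24) (w : W) : (supp (σ • w)).card = (supp w).card := by
  rw [supp_smul, Finset.card_image_of_injective _ σ.1.injective]

theorem supp_add (v w : W) : supp (v + w) = symmDiff (supp v) (supp w) := by
  ext p
  rw [Finset.mem_symmDiff, mem_supp, mem_supp, mem_supp]
  show v.1 p + w.1 p = 1 ↔ _
  rcases zmod2_cases (v.1 p) with h | h <;> rcases zmod2_cases (w.1 p) with h' | h' <;>
    rw [h, h'] <;> decide

theorem supp_all1 : supp all1 = Finset.univ := by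
  ext p; simp [mem_supp, all1_apply]

theorem supp_zero : supp 0 = ∅ := by
  ext p; simp [mem_supp]

theorem eq_zero_of_card {w : W} (h : (supp w).card < 8) : w = 0 := by
  have := GC_card (supp_mem w)
  apply supp_inj
  rw [supp_zero, ← Finset.card_eq_zero]; omega

theorem supp_add_all1 (w : W) : supp (w + all1) = (supp w)ᶜ := by
  rw [supp_add, supp_all1]; ext p; simp [Finset.mem_symmDiff]

theorem eq_all1_of_card {w : W} (h : 16 < (supp w).card) : w = all1 := by
  have h1 : w + all1 = 0 := by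
    apply eq_zero_of_card
    rw [supp_add_all1, Finset.card_compl, card_golayPt]; omega
  rw [← add_zero w, ← W_add_self all1, ← add_assoc, h1, zero_add]

theorem sepW {p q : GolayPt} (h : p ≠ q) : ∃ w : W, w.1 p ≠ w.1 q := by
  obtain ⟨c, hc, h1, h2⟩ := exists_sep h
  obtain ⟨w, rfl⟩ := exists_supp hc
  rw [mem_supp] at h1 h2
  exact ⟨w, by rw [h2]; exact h1⟩

/-- A family of words separates the points. -/
def Sep (U : Set W) : Prop := ∀ p q : GolayPt, p ≠ q → ∃ w ∈ U, w.1 p ≠ w.1 q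

theorem sep_univ : Sep Set.univ := fun _ _ h => by
  obtain ⟨w, hw⟩ := sepW h
  exact ⟨w, trivial, hw⟩

theorem Sep.eq_one {U : Set W} (hU : Sep U) {σ : M24} (h : ∀ w ∈ U, σ • w = w) : σ = 1 := by
  apply Subtype.ext
  ext1 p
  by_contra hp
  obtain ⟨w, hw, e⟩ := hU _ _ hp
  apply e
  conv_lhs => rw [← h w hw]
  exact smul_apply' σ w p

theorem eq_one_of_smul {σ : M24} (h : ∀ w : W, σ • w = w) : σ = 1 :=
  sep_univ.eq_one fun w _ => h w

theorem eq_of_smul {σ τ : M24} (h : ∀ w : W, σ • w = τ • w) : σ = τ := by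
  rw [← inv_mul_eq_one]
  exact eq_one_of_smul fun w => by rw [mul_smul, ← h, inv_smul_smul]

/-- sign changes -/
def sg (w : W) : Co0 := signElt (supp w) (supp_mem w)

theorem sg_apply (w : W) (v : Λ) (i : GolayPt) :
    (sg w • v : Λ).1 i = if w.1 i = 1 then -v.1 i else v.1 i := by
  rw [sg, signElt_apply]; simp only [mem_supp]

theorem sg_add (v w : W) : sg (v + w) = sg v * sg w := Co0_ext fun x => Λ_ext fun i => by
  rw [mul_smul, sg_apply, sg_apply, sg_apply]
  show (if v.1 i + w.1 i = 1 then _ else _) = _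
  rcases zmod2_cases (v.1 i) with h | h <;> rcases zmod2_cases (w.1 i) with h' | h' <;>
    rw [h, h'] <;> simp

theorem sg_zero : sg 0 = 1 := Co0_ext fun x => Λ_ext fun i => by
  rw [sg_apply]; simp

theorem sg_all1 : sg all1 = negElt := Co0_ext fun x => Λ_ext fun i => by
  rw [sg_apply, negElt_smul]; simp [all1_apply]

theorem sg_mul_self (w : W) : sg w * sg w = 1 := by rw [← sg_add, W_add_self, sg_zero]

theorem sg_inv (w : W) : (sg w)⁻¹ = sg w := inv_eq_of_mul_eq_one_right (sg_mul_self w)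

theorem sg_comm (v w : W) : sg v * sg w = sg w * sg v := by rw [← sg_add, add_comm, sg_add]

theorem sg_e8 (w : W) (p : GolayPt) : sg w • e8 p = if w.1 p = 1 then -e8 p else e8 p :=
  Λ_ext fun i => by
    rw [sg_apply]
    by_cases h : i = p
    · subst h; split_ifs <;> simp
    · split_ifs <;> simp [e8_apply, h]

theorem sg_injective : Function.Injective sg := by
  intro v w h
  refine W_ext fun p => ?_
  have h1 := sg_e8 v p
  rw [h, sg_e8] at h1
  rcases zmod2_cases (v.1 p) with a | a <;> rcases zmod2_cases (w.1 p) with b | b <;>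
    rw [a, b] at h1 ⊢
  · exact absurd h1.symm (by simpa using e8_ne_neg p p)
  · exact absurd h1 (by simpa using e8_ne_neg p p)

theorem perm_mul (σ τ : M24) : permElt (σ * τ) = permElt σ * permElt τ := permHom.map_mul σ τ

theorem perm_one : permElt 1 = 1 := permHom.map_one

theorem perm_inv (σ : M24) : permElt σ⁻¹ = (permElt σ)⁻¹ := permHom.map_inv σ

theorem perm_pow (σ : M24) (n : ℕ) : permElt (σ ^ n) = permElt σ ^ n := permHom.map_pow σ n

theorem perm_sg (σ : M24) (w : W) : permElt σ * sg w = sg (σ • w) * permElt σ :=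
  Co0_ext fun x => Λ_ext fun i => by
    rw [mul_smul, mul_smul, sg_apply, permElt_apply, permElt_apply, sg_apply, smul_apply]

theorem perm_conj_sg (σ : M24) (w : W) : permElt σ * sg w * (permElt σ)⁻¹ = sg (σ • w) := by
  rw [perm_sg, mul_inv_cancel_right]

theorem mono_conj_sg (d : W) (σ : M24) (w : W) :
    sg d * permElt σ * sg w * (sg d * permElt σ)⁻¹ = sg (σ • w) := by
  rw [mul_inv_rev, sg_inv, mul_assoc (sg d), ← mul_assoc, mul_assoc (sg d), perm_conj_sg,
    sg_comm d, mul_assoc, sg_mul_self, mul_one]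

theorem mono_inj {v w : W} {σ τ : M24} (h : sg v * permElt σ = sg w * permElt τ) :
    v = w ∧ σ = τ := by
  have h1 : σ = τ := eq_of_smul fun u => sg_injective (by
    rw [← mono_conj_sg v, h, mono_conj_sg])
  subst h1
  exact ⟨sg_injective (mul_right_cancel h), rfl⟩

theorem perm_eq_sg {σ : M24} {w : W} (h : permElt σ = sg w) : σ = 1 ∧ w = 0 := by
  have := @mono_inj 0 w σ 1 (by rw [sg_zero, one_mul, perm_one, mul_one, h])
  exact ⟨this.2, this.1.symm⟩

/-- the group of sign changes -/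
def V0 : Subgroup Co0 where
  carrier := Set.range sg
  one_mem' := ⟨0, sg_zero⟩
  mul_mem' := by
    rintro _ _ ⟨v, rfl⟩ ⟨w, rfl⟩
    exact ⟨v + w, sg_add v w⟩
  inv_mem' := by
    rintro _ ⟨v, rfl⟩
    exact ⟨v, (sg_inv v).symm⟩

theorem mem_V0 {g : Co0} : g ∈ V0 ↔ ∃ w, sg w = g := Iff.rfl

theorem sg_mem (w : W) : sg w ∈ V0 := ⟨w, rfl⟩

theorem card_V0 : Nat.card V0 = 4096 := by
  rw [← card_W]
  exact (Nat.card_congr (Equiv.ofInjective sg sg_injective)).symm

/-- the monomial group -/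
def N0 : Subgroup Co0 where
  carrier := {g | ∃ (w : W) (σ : M24), g = sg w * permElt σ}
  one_mem' := ⟨0, 1, by rw [sg_zero, perm_one, one_mul]⟩
  mul_mem' := by
    rintro _ _ ⟨v, σ, rfl⟩ ⟨w, τ, rfl⟩
    exact ⟨v + σ • w, σ * τ, by
      rw [sg_add, perm_mul, mul_assoc, ← mul_assoc (permElt σ), perm_sg]; simp only [mul_assoc]⟩
  inv_mem' := by
    rintro _ ⟨v, σ, rfl⟩
    exact ⟨σ⁻¹ • v, σ⁻¹, by rw [mul_inv_rev, sg_inv, ← perm_inv, perm_sg]⟩

theorem mem_N0 {g : Co0} : g ∈ N0 ↔ ∃ (w : W) (σ : M24), g = sg w * permElt σ := Iff.rfl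

theorem sg_mem_N0 (w : W) : sg w ∈ N0 := ⟨w, 1, by rw [perm_one, mul_one]⟩

theorem perm_mem_N0 (σ : M24) : permElt σ ∈ N0 := ⟨0, σ, by rw [sg_zero, one_mul]⟩

theorem neg_mem_N0 : negElt ∈ N0 := sg_all1 ▸ sg_mem_N0 _

theorem card_N0 : Nat.card N0 = 4096 * 244823040 := by
  rw [← card_W, ← H2.card_M24, ← Nat.card_prod]
  refine (Nat.card_congr (Equiv.ofBijective
    (fun x : W × M24 => (⟨sg x.1 * permElt x.2, x.1, x.2, rfl⟩ : N0)) ⟨?_, ?_⟩)).symm
  · rintro ⟨v, σ⟩ ⟨w, τ⟩ h
    have := mono_inj (congrArg Subtype.val h)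
    exact Prod.ext this.1 this.2
  · rintro ⟨_, w, σ, rfl⟩
    exact ⟨(w, σ), rfl⟩

theorem mem_N0_of_e8 {g : Co0} {p q : GolayPt} (h : g • e8 p = e8 q ∨ g • e8 p = -e8 q) :
    g ∈ N0 := by
  obtain ⟨σ, c, hc, rfl⟩ := monomial h
  obtain ⟨w, rfl⟩ := exists_supp hc
  exact ⟨w, σ, rfl⟩

theorem N0_e8 {g : Co0} (hg : g ∈ N0) (p : GolayPt) :
    ∃ q, g • e8 p = e8 q ∨ g • e8 p = -e8 q := by
  obtain ⟨w, σ, rfl⟩ := hg
  refine ⟨σ.1 p, ?_⟩
  rw [mul_smul, permElt_e8, sg_e8]
  split_ifs <;> simp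

theorem eigen {U : Set W} (hU : Sep U) {y : Λ} (hn : sqNorm y.1 = 64)
    (h : ∀ w ∈ U, sg w • y = y ∨ sg w • y = -y) : ∃ q, y = e8 q ∨ y = -e8 q := by
  have h0 : ∃ q, y.1 q ≠ 0 := by
    by_contra hc
    push Not at hc
    simp [sqNorm, hc] at hn
  obtain ⟨q, hq⟩ := h0
  have h1 : ∀ j, j ≠ q → y.1 j = 0 := by
    intro j hj
    obtain ⟨w, hw, e⟩ := hU j q hj
    have a1 := sg_apply w y j
    have a2 := sg_apply w y q
    rcases h w hw with b | b <;> rw [b] at a1 a2 <;>
      rcases zmod2_cases (w.1 j) with c | c <;> rcases zmod2_cases (w.1 q) with d | d <;>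
      simp [c, d] at a1 a2 e <;> omega
  have h2 : y.1 q ^ 2 = 64 := by
    rw [← hn, sqNorm, Finset.sum_eq_single q]
    · intro j _ hj; rw [h1 j hj]; rfl
    · simp
  have h3 : y.1 q = 8 ∨ y.1 q = -8 := by
    have : (y.1 q - 8) * (y.1 q + 8) = 0 := by linarith
    rcases mul_eq_zero.1 this with a | a <;> omega
  refine ⟨q, ?_⟩
  rcases h3 with a | a
  · exact Or.inl (eq_e8 hn a)
  · right
    rw [← neg_eq_iff_eq_neg]
    exact eq_e8 (by rw [sqNorm_neg', hn]) (by simp [a])

theorem mem_N0_of_conj {U : Set W} (hU : Sep U) {g : Co0}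
    (h : ∀ w ∈ U, g⁻¹ * sg w * g ∈ V0) : g ∈ N0 := by
  obtain ⟨q, hq⟩ := eigen hU (y := g • e8 none) (by rw [norm_smul, norm_e8]) (fun w hw => by
    obtain ⟨v, hv⟩ := h w hw
    have : sg w • g • e8 none = g • sg v • e8 none := by
      rw [hv, ← mul_smul, ← mul_smul]; congr 1; group
    rw [this, sg_e8]
    split_ifs
    · right; rw [smul_neg]
    · left; rfl)
  exact mem_N0_of_e8 hq

theorem mem_V0_of_comm {U : Set W} (hU : Sep U) {g : Co0}
    (h : ∀ w ∈ U, g * sg w = sg w * g) : g ∈ V0 := by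
  obtain ⟨d, σ, rfl⟩ := mem_N0_of_conj hU (g := g) fun w hw => by
    rw [mul_assoc, ← h w hw, inv_mul_cancel_left]; exact sg_mem w
  have : σ = 1 := hU.eq_one fun w hw => sg_injective (by
    rw [← mono_conj_sg d, h w hw, mul_inv_cancel_right])
  subst this
  rw [perm_one, mul_one]; exact sg_mem d

theorem normalizer_V0 : Subgroup.normalizer (V0 : Set Co0) = N0 := by
  ext g
  constructor
  · intro hg
    exact mem_N0_of_conj sep_univ fun w _ => by
      have := (Subgroup.mem_normalizer_iff.1 (Subgroup.inv_mem _ hg) (sg w)).1 (sg_mem w)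
      simpa using this
  · intro hg
    refine Subgroup.mem_normalizer_fintype ?_
    rintro _ ⟨w, rfl⟩
    obtain ⟨d, σ, rfl⟩ := hg
    exact ⟨_, (mono_conj_sg d σ w).symm⟩

/-- every 2-subgroup is conjugate into the monomial group -/
theorem exists_conj_le_N0 {Y : Subgroup Co0} (hY : IsPGroup 2 Y) :
    ∃ b : Co0, ∀ y ∈ Y, b * y * b⁻¹ ∈ N0 := by
  obtain ⟨Q⟩ : Nonempty (Sylow 2 N0) := inferInstance
  have hQ : Nat.card (Q.1.map N0.subtype) = 2 ^ (Nat.card Co0).factorization 2 := by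
    rw [Subgroup.card_map_of_injective N0.subtype_injective, Q.card_eq_multiplicity, card_N0,
      card_Co0]
    congr 1
    rw [show 4096 * 244823040 = 2 ^ 22 * 239085 by norm_num,
      show 8315553613086720000 = 2 ^ 22 * 1982582476875 by norm_num,
      Nat.factorization_mul (by norm_num) (by norm_num),
      Nat.factorization_mul (by norm_num) (by norm_num)]
    simp only [Finsupp.add_apply]
    rw [Nat.factorization_eq_zero_of_not_dvd (n := 239085) (by norm_num),
      Nat.factorization_eq_zero_of_not_dvd (n := 1982582476875) (by norm_num)]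
  obtain ⟨P, hP⟩ := hY.exists_le_sylow
  obtain ⟨b, hb⟩ := exists_smul_eq Co0 P (Sylow.ofCard _ hQ)
  refine ⟨b, fun y hy => ?_⟩
  have h1 : b * y * b⁻¹ ∈ (b • P : Sylow 2 Co0) := by
    rw [← SetLike.mem_coe, Sylow.coe_smul]
    exact ⟨y, hP hy, rfl⟩
  rw [hb] at h1
  obtain ⟨x, -, hx⟩ := h1
  exact hx ▸ x.2

end C0
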