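import Cfsg.Agent.C0.A

/-! Involutions of `M24` fix at most 8 points; `M24` has no offenders on the code. -/

set_option autoImplicit false

namespace C0
open Cfsg H3 MulAction H2
open scoped Pointwise

/-- fixed points -/
def Fx (g : Equiv.Perm GolayPt) : Finset GolayPt := Finset.univ.filter fun p => g p = p

theorem mem_Fx {g : Equiv.Perm GolayPt} {p : GolayPt} : p ∈ Fx g ↔ g p = p := by simp [Fx]

/-- an involution with many fixed points -/
def Big (g : Equiv.Perm GolayPt) : Prop := g ∈ M24 ∧ g * g = 1 ∧ 9 ≤ (Fx g).card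

theorem Big.conj {g σ : Equiv.Perm GolayPt} (h : Big g) (hσ : σ ∈ M24) : Big (σ⁻¹ * g * σ) := by
  refine ⟨M24.mul_mem (M24.mul_mem (M24.inv_mem hσ) h.1) hσ, ?_, ?_⟩
  · calc σ⁻¹ * g * σ * (σ⁻¹ * g * σ) = σ⁻¹ * (g * g) * σ := by group
      _ = 1 := by rw [h.2.1]; group
  · have : Fx g = (Fx (σ⁻¹ * g * σ)).image σ := by
      ext p
      obtain ⟨q, rfl⟩ := σ.surjective p
      rw [Function.Injective.mem_finset_image σ.injective, mem_Fx, mem_Fx]
      simp [Equiv.symm_apply_eq]
    rw [← Finset.card_image_of_injective _ σ.injective, ← this]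
    exact h.2.2

theorem eq_one_of_conj {g σ : Equiv.Perm GolayPt} (h : σ⁻¹ * g * σ = 1) : g = 1 := by
  calc g = σ * (σ⁻¹ * g * σ) * σ⁻¹ := by group
    _ = 1 := by rw [h]; group

theorem conj_fix {g σ : Equiv.Perm GolayPt} {p : GolayPt} (h : g (σ p) = σ p) :
    (σ⁻¹ * g * σ) • p = p := by
  simp [h]

theorem big6 {g : Equiv.Perm GolayPt} (h : Big g)
    (hg : g ∈ fixL M24 ([5, 3, 2, 1, 0, 23].map pt)) : g = 1 := by
  have h1 : ∃ z, g z = z ∧ z ∉ fs octO := by
    by_contra hc
    push Not at hc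
    have : Fx g ⊆ fs octO := fun p hp => hc p (mem_Fx.1 hp)
    have := Finset.card_le_card this
    rw [(H2.mem_octads.1 octO_mem).2] at this
    have := h.2.2
    omega
  obtain ⟨z, hz, hz'⟩ := h1
  have h2 : fs 8241104 = (fs octO)ᶜ := by rw [← fs_compl]; rfl
  obtain ⟨ρ, hρ, e⟩ := low7 allIn_M24_st z (by rw [h2]; simpa using hz') (by
    intro hm; apply hz'; revert hm; generalize z = z; revert z; decide +kernel)
  apply eq_one_of_conj (σ := ρ)
  apply fix7_eq_one
  refine ⟨(h.conj hρ.1).1, fun x hx => ?_⟩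
  rw [List.map_cons, List.mem_cons] at hx
  rcases hx with rfl | hx
  · apply conj_fix
    have : ρ (pt 4) = z := e
    rw [this, hz]
  · apply conj_fix
    have a : ρ x = x := hρ.2 x hx
    have b : g x = x := hg.2 x hx
    rw [a, b]

theorem big5 {g : Equiv.Perm GolayPt} (h : Big g)
    (hg : g ∈ fixL M24 ([3, 2, 1, 0, 23].map pt)) : g = 1 := by
  have hS : ∀ p : GolayPt, p ∈ fs octO → p ∉ [3, 2, 1, 0, 23].map pt →
      p = pt 5 ∨ p = pt 14 ∨ p = pt 17 := by decide +kernel
  have hm : ∀ p : GolayPt, p ∈ fs octO → p ∉ [3, 2, 1, 0, 23].map pt →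
      g p = pt 5 ∨ g p = pt 14 ∨ g p = pt 17 := by
    intro p h1 h2
    apply hS
    · rw [← fix5_smul_octO hg]; exact Finset.smul_mem_smul_finset h1
    · intro h3
      have : g (g p) = g p := hg.2 _ h3
      exact h2 (g.injective this ▸ h3)
  have hi : ∀ p, g (g p) = p := fun p => by rw [← Equiv.Perm.mul_apply, h.2.1]; rfl
  have h1 : ∃ y, y ∈ fs octO ∧ y ∉ [3, 2, 1, 0, 23].map pt ∧ g y = y := by
    have a := hm (pt 5) (by decide +kernel) (by decide +kernel)
    have c := hm (pt 17) (by decide +kernel) (by decide +kernel)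
    have b := hm (pt 14) (by decide +kernel) (by decide +kernel)
    rcases a with a | a | a
    · exact ⟨_, by decide +kernel, by decide +kernel, a⟩
    · have a' := hi (pt 5)
      rw [a] at a'
      rcases c with c | c | c
      · exact absurd (g.injective (c.trans a'.symm)) (by decide +kernel)
      · exact absurd (g.injective (c.trans a.symm)) (by decide +kernel)
      · exact ⟨_, by decide +kernel, by decide +kernel, c⟩
    · have a' := hi (pt 5)
      rw [a] at a'
      rcases b with b | b | b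
      · exact absurd (g.injective (b.trans a'.symm)) (by decide +kernel)
      · exact ⟨_, by decide +kernel, by decide +kernel, b⟩
      · exact absurd (g.injective (b.trans a.symm)) (by decide +kernel)
  obtain ⟨y, y1, y2, y3⟩ := h1
  obtain ⟨ρ, hρ, e⟩ := low6 allIn_M24_st y y1 y2
  apply eq_one_of_conj (σ := ρ)
  apply big6 (h.conj hρ.1)
  refine ⟨(h.conj hρ.1).1, fun x hx => ?_⟩
  rw [List.map_cons, List.mem_cons] at hx
  rcases hx with rfl | hx
  · apply conj_fix
    have : ρ (pt 5) = y := e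
    rw [this, y3]
  · apply conj_fix
    have a : ρ x = x := hρ.2 x hx
    have b : g x = x := hg.2 x hx
    rw [a, b]

theorem big_eq_one {g : Equiv.Perm GolayPt} (h : Big g) : g = 1 := by
  obtain ⟨x, hx, hx'⟩ := exists_tuple (Fx g) (k := 5) (by have := h.2.2; omega)
  obtain ⟨σ, hσ, e⟩ := M24_five_trans ![pt 3, pt 2, pt 1, pt 0, pt 23] x (by decide +kernel) hx
  apply eq_one_of_conj (σ := σ)
  apply big5 (h.conj hσ)
  refine ⟨(h.conj hσ).1, fun p hp => ?_⟩
  have : ∃ i, p = ![pt 3, pt 2, pt 1, pt 0, pt 23] i := by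
    revert hp; generalize p = p; revert p; decide +kernel
  obtain ⟨i, rfl⟩ := this
  apply conj_fix
  rw [e]; exact mem_Fx.1 (hx' i)

theorem card_Fx_le {g : M24} (h : g * g = 1) (h1 : g ≠ 1) : (Fx g.1).card ≤ 8 := by
  by_contra hc
  exact h1 (Subtype.ext (big_eq_one ⟨g.2, congrArg Subtype.val h, by omega⟩))

theorem pick {Q : Type*} [Fintype Q] [DecidableEq Q] (a : Q → ℕ) (d : ℕ → ℕ)
    (hd : ∀ j < 5, d j ≤ (Finset.univ.filter fun q => a q = j).card) :
    ∃ D : Finset Q, ∀ f : ℕ → ℕ, ∑ q ∈ D, f (a q) =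
      d 0 * f 0 + d 1 * f 1 + d 2 * f 2 + d 3 * f 3 + d 4 * f 4 := by
  have : ∀ j, ∃ D : Finset Q, j < 5 → D ⊆ (Finset.univ.filter fun q => a q = j) ∧ D.card = d j := by
    intro j
    by_cases hj : j < 5
    · obtain ⟨D, h1, h2⟩ := Finset.exists_subset_card_eq (hd j hj)
      exact ⟨D, fun _ => ⟨h1, h2⟩⟩
    · exact ⟨∅, fun h => absurd h hj⟩
  choose D hD using this
  have hm : ∀ j < 5, ∀ q ∈ D j, a q = j := fun j hj q hq => by
    simpa using (hD j hj).1 hq
  refine ⟨(Finset.range 5).biUnion D, fun f => ?_⟩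
  rw [Finset.sum_biUnion]
  · have : ∀ j ∈ Finset.range 5, ∑ q ∈ D j, f (a q) = d j * f j := by
      intro j hj
      rw [Finset.mem_range] at hj
      rw [Finset.sum_congr rfl fun q hq => by rw [hm j hj q hq], Finset.sum_const, (hD j hj).2,
        smul_eq_mul]
    rw [Finset.sum_congr rfl this]
    simp [Finset.sum_range_succ]
  · intro i hi j hj hij
    rw [Function.onFun, Finset.disjoint_left]
    intro q h1 h2
    exact hij ((hm i (by simpa using hi) q h1).symm.trans (hm j (by simpa using hj) q h2))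

theorem numeric {n0 n1 n2 n3 n4 k F : ℕ} (h : n0 + 2 * n1 + 4 * n2 + 8 * n3 + 16 * n4 = 24)
    (hk : 1 ≤ k) (hB : (n0 + n1 + n2 + n3 + n4) * 2 ^ k ≤ 16 + 8 * 2 ^ k)
    (hK : ∀ d0 d1 d2 d3 d4, d0 ≤ n0 → d1 ≤ n1 → d2 ≤ n2 → d3 ≤ n3 → d4 ≤ n4 →
      9 ≤ d0 + 2 * d1 + 4 * d2 + 8 * d3 + 16 * d4 → k ≤ d1 + 2 * d2 + 3 * d3 + 4 * d4)
    (hS : ∀ d0 d1 d2, d0 ≤ n0 → d1 ≤ n1 → d2 ≤ n2 → d0 + 2 * d1 + 4 * d2 ≤ 7 →
      F ≤ 2 ^ (n0 + n1 + n2 + n3 + n4 - (d0 + d1 + d2))) : 2 ^ k * F < 4096 := by
  have h6 : k ≤ 6 := by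
    by_cases a4 : 1 ≤ n4
    · have := hK 0 0 0 0 1; omega
    by_cases a3 : 2 ≤ n3
    · have := hK 0 0 0 2 0; omega
    by_cases a3' : n3 = 1
    · have := hK 1 0 0 1 0
      have := hK 0 1 0 1 0
      have := hK 0 0 1 1 0
      omega
    by_cases a2 : 3 ≤ n2
    · have := hK 0 0 3 0 0; omega
    · have := hK n0 (min n1 (6 - 2 * n2)) n2 0 0; omega
  obtain ⟨d0, e0⟩ : ∃ d0, d0 = min n0 7 := ⟨_, rfl⟩
  obtain ⟨d1, e1⟩ : ∃ d1, d1 = min n1 ((7 - d0) / 2) := ⟨_, rfl⟩
  obtain ⟨d2, e2⟩ : ∃ d2, d2 = min n2 ((7 - d0 - 2 * d1) / 4) := ⟨_, rfl⟩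
  have h1 := hS d0 d1 d2 (by omega) (by omega) (by omega) (by omega)
  have h2 : k + (n0 + n1 + n2 + n3 + n4 - (d0 + d1 + d2)) ≤ 11 := by
    interval_cases k <;> omega
  calc 2 ^ k * F ≤ 2 ^ k * 2 ^ (n0 + n1 + n2 + n3 + n4 - (d0 + d1 + d2)) :=
        Nat.mul_le_mul_left _ h1
    _ ≤ 2 ^ 11 := by rw [← pow_add]; exact Nat.pow_le_pow_right (by norm_num) h2
    _ < 4096 := by norm_num

theorem comm_of_sq' {G : Type*} [Group G] {E : Subgroup G} (hE : ∀ e ∈ E, e * e = 1) {a b : G}
    (ha : a ∈ E) (hb : b ∈ E) : a * b = b * a := by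
  have h1 := hE _ (E.mul_mem ha hb)
  have h2 := inv_eq_of_mul_eq_one_right (hE a ha)
  have h3 := inv_eq_of_mul_eq_one_right (hE b hb)
  rw [← inv_eq_of_mul_eq_one_right h1, mul_inv_rev, h2, h3]

theorem isPGroup_of_sq {G : Type*} [Group G] {E : Subgroup G} (hE : ∀ e ∈ E, e * e = 1) :
    IsPGroup 2 E := fun e => ⟨1, Subtype.ext (by simpa [pow_two] using hE e e.2)⟩

open Classical in
/-- `M24` has no offender on the code. -/
theorem no_offender {E : Subgroup M24} (hE : ∀ e ∈ E, e * e = 1) (h1 : E ≠ ⊥) :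
    Nat.card E * Nat.card {w : W // ∀ e ∈ E, e • w = w} < 4096 := by
  have hp := isPGroup_of_sq hE
  obtain ⟨k, hk⟩ := hp.exists_card_eq
  have hk1 : 1 ≤ k := by
    rcases k with _ | k
    · exact absurd (Subgroup.eq_bot_of_card_eq E (by simpa using hk)) h1
    · omega
  let Q := orbitRel.Quotient E GolayPt
  let _ : Fintype Q := Fintype.ofFinite _
  let π : GolayPt → Q := Quotient.mk _
  let fb : Q → Finset GolayPt := fun q => Finset.univ.filter fun p => π p = q
  have hfb : ∀ q p, p ∈ fb q ↔ ∃ e : E, e • q.out = p := by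
    intro q p
    simp only [fb, Finset.mem_filter, Finset.mem_univ, true_and]
    conv_lhs => rw [← Quotient.out_eq q]
    exact Quotient.eq.trans Iff.rfl
  have ha : ∀ q, ∃ a, (fb q).card = 2 ^ a := by
    intro q
    obtain ⟨a, ha⟩ := hp.card_orbit q.out
    refine ⟨a, ?_⟩
    rw [← ha, ← Nat.card_eq_finsetCard]
    exact Nat.card_congr (Equiv.subtypeEquivRight fun p => hfb q p)
  choose a ha using ha
  have ha5 : ∀ q, a q < 5 := by
    intro q
    have h2 : (fb q).card ≤ 24 := card_golayPt ▸ Finset.card_le_univ _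
    rw [ha] at h2
    by_contra hc
    have : 2 ^ 5 ≤ 2 ^ a q := Nat.pow_le_pow_right (by norm_num) (by omega)
    omega
  have hcard : ∀ D : Finset Q, (Finset.univ.filter fun p => π p ∈ D).card = ∑ q ∈ D, 2 ^ a q := by
    intro D
    rw [Finset.card_eq_sum_card_fiberwise (f := π) (t := D) (by intro p hp; simpa using hp)]
    refine Finset.sum_congr rfl fun q hq => ?_
    rw [← ha]
    congr 1
    ext p
    simp only [fb, Finset.mem_filter, Finset.mem_univ, true_and]
    exact ⟨fun h => h.2, fun h => ⟨h ▸ hq, h⟩⟩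
  let n : ℕ → ℕ := fun j => (Finset.univ.filter fun q => a q = j).card
  have hall : ∀ f : ℕ → ℕ, ∑ q : Q, f (a q) =
      n 0 * f 0 + n 1 * f 1 + n 2 * f 2 + n 3 * f 3 + n 4 * f 4 := by
    intro f
    rw [← Finset.sum_fiberwise_of_maps_to (s := Finset.univ) (t := Finset.range 5) (g := a)
      (fun q _ => Finset.mem_range.2 (ha5 q))]
    have : ∀ j ∈ Finset.range 5, ∑ q ∈ Finset.univ.filter (fun q => a q = j), f (a q) =
        n j * f j := by
      intro j _
      rw [Finset.sum_congr rfl fun q hq => by rw [(Finset.mem_filter.1 hq).2], Finset.sum_const,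
        smul_eq_mul]
    rw [Finset.sum_congr rfl this]
    simp [Finset.sum_range_succ]
  have hr : Fintype.card Q = n 0 + n 1 + n 2 + n 3 + n 4 := by
    simpa using hall fun _ => 1
  have h24 : n 0 + 2 * n 1 + 4 * n 2 + 8 * n 3 + 16 * n 4 = 24 := by
    have e1 := hall fun j => 2 ^ j
    have e2 := hcard Finset.univ
    simp only [Finset.mem_univ, Finset.filter_true, Finset.card_univ, card_golayPt] at e2
    omega
  -- an element fixing the base point of an orbit fixes the orbit
  have hfix : ∀ (e : E) (p : GolayPt), e • (π p).out = (π p).out → e • p = p := by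
    intro e p he
    obtain ⟨f, hf⟩ := (hfb (π p) p).1 (by simp [fb])
    have : e * f = f * e := Subtype.ext (comm_of_sq' hE e.2 f.2)
    conv_lhs => rw [← hf, ← mul_smul, this, mul_smul, he, hf]
  rw [hk]
  refine numeric h24 hk1 ?_ ?_ ?_
  · let _ : Fintype E := Fintype.ofFinite _
    have hb := sum_card_fixedBy_eq_card_orbits_mul_card_group E GolayPt
    have hc : Fintype.card E = 2 ^ k := by rw [← hk, Nat.card_eq_fintype_card]
    have hb' : ∑ g : E, Fintype.card (fixedBy GolayPt g) = Fintype.card Q * Fintype.card E := by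
      convert hb
    rw [← hr, ← hc, ← hb']
    have : ∀ g : E, Fintype.card (fixedBy GolayPt g) ≤ (if g = 1 then 16 else 0) + 8 := by
      intro g
      have e : Fintype.card (fixedBy GolayPt g) = (Fx g.1.1).card := by
        rw [← Nat.card_eq_fintype_card, ← Nat.card_eq_finsetCard]
        exact Nat.card_congr (Equiv.subtypeEquivRight fun p => mem_Fx.symm)
      rw [e]
      split_ifs with hg
      · exact (Finset.card_le_univ _).trans card_golayPt.le
      · exact card_Fx_le (hE _ g.2) fun h => hg (Subtype.ext h)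
    refine (Finset.sum_le_sum fun g _ => this g).trans ?_
    rw [Finset.sum_add_distrib]
    simp [mul_comm]
  · intro d0 d1 d2 d3 d4 e0 e1 e2 e3 e4 h9
    obtain ⟨D, hD⟩ := pick a (fun j => [d0, d1, d2, d3, d4].getD j 0) (by
      intro j hj; interval_cases j <;> simpa)
    have c1 := hD fun j => 2 ^ j
    have c2 := hD fun j => j
    simp only [List.getD_cons_zero, List.getD_cons_succ] at c1 c2
    have hinj : Function.Injective (fun (e : E) (q : D) =>
        (⟨e • q.1.out, (hfb _ _).2 ⟨e, rfl⟩⟩ : fb q.1)) := by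
      intro e e' h
      rw [← inv_mul_eq_one]
      by_contra hne
      have h8 := card_Fx_le (hE _ (e⁻¹ * e').2) fun h => hne (Subtype.ext h)
      have : (Finset.univ.filter fun p => π p ∈ D) ⊆ Fx (e⁻¹ * e').1.1 := by
        intro p hp
        rw [mem_Fx]
        apply hfix (e⁻¹ * e') p
        have := congrArg Subtype.val (congrFun h ⟨π p, by simpa using hp⟩)
        simp only at this
        rw [mul_smul, ← this, inv_smul_smul]
      have := Finset.card_le_card this
      rw [hcard] at this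
      omega
    have := Nat.card_le_card_of_injective _ hinj
    rw [hk, Nat.card_pi] at this
    simp only [Nat.card_eq_finsetCard, ha] at this
    rw [Finset.prod_pow_eq_pow_sum, Finset.sum_coe_sort D a] at this
    have := (Nat.pow_le_pow_iff_right (by norm_num)).1 this
    omega
  · intro d0 d1 d2 e0 e1 e2 h7
    obtain ⟨D, hD⟩ := pick a (fun j => [d0, d1, d2, 0, 0].getD j 0) (by
      intro j hj; interval_cases j <;> simp <;> assumption)
    have c1 := hD fun j => 2 ^ j
    have c2 := hD fun _ => 1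
    simp only [List.getD_cons_zero, List.getD_cons_succ, Finset.sum_const, smul_eq_mul] at c1 c2
    have hinj : Function.Injective (fun (w : {w : W // ∀ e ∈ E, e • w = w}) (q : {q // q ∉ D}) =>
        w.1.1 q.1.out) := by
      intro v w h
      apply Subtype.ext
      have : v.1 + w.1 = 0 := by
        apply eq_zero_of_card
        have : supp (v.1 + w.1) ⊆ (Finset.univ.filter fun p => π p ∈ D) := by
          intro p hp
          by_contra hc
          have hq : π p ∉ D := by simpa using hc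
          obtain ⟨f, hf⟩ := (hfb (π p) p).1 (by simp [fb])
          have e := congrFun h ⟨π p, hq⟩
          simp only at e
          have a1 : v.1.1 p = v.1.1 (π p).out := by
            conv_lhs => rw [← v.2 f f.2, ← hf]
            exact smul_apply' f.1 v.1 _
          have a2 : w.1.1 p = w.1.1 (π p).out := by
            conv_lhs => rw [← w.2 f f.2, ← hf]
            exact smul_apply' f.1 w.1 _
          rw [mem_supp] at hp
          have : v.1.1 p + w.1.1 p = 1 := hp
          rw [a1, a2, e] at this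
          revert this
          generalize w.1.1 (π p).out = z
          revert z; decide
        have := Finset.card_le_card this
        rw [hcard] at this
        omega
      rw [← add_zero v.1, ← W_add_self w.1, ← add_assoc, this, zero_add]
    have := Nat.card_le_card_of_injective _ hinj
    rw [Nat.card_fun, Nat.card_zmod, Nat.card_eq_fintype_card (α := {q // q ∉ D}),
      Fintype.card_subtype_compl, Fintype.card_coe, hr] at this
    convert this using 2
    omega

end C0
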