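import Cfsg.Agent.C0.A

/-! An automorphism of the Conway group that centralises the monomial group is trivial. -/

set_option autoImplicit false

namespace C0
open Cfsg H3 MulAction H2

/-- sign of a boolean -/
def sn (b : Bool) : ℤ := if b then -1 else 1

theorem sn_even (a b : Bool) : (2 : ℤ) ∣ sn a + sn b := by cases a <;> cases b <;> decide

theorem sn_sub (a b : Bool) : sn a - sn b = 2 * ((sn a - sn b) / 2) := by
  cases a <;> cases b <;> decide

theorem sn_not (a : Bool) : sn (!a) = -sn a := by cases a <;> rfl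

theorem sn_sq (a : Bool) : sn a * sn a = 1 := by cases a <;> rfl

theorem exists_sn (x : ℤ) : ∃ b, sn b * x = |x| := by
  rcases le_total 0 x with h | h
  · exact ⟨false, by simp [sn, abs_of_nonneg h]⟩
  · exact ⟨true, by simp [sn, abs_of_nonpos h]⟩

/-- vectors of shape `(±4)^4` -/
def tet (a b c d : GolayPt) (s t u v : Bool) : Λ :=
  v2 a b (sn s) (sn t) (sn_even _ _) + v2 c d (sn u) (sn v) (sn_even _ _)

theorem tet_apply (a b c d : GolayPt) (s t u v : Bool) (i : GolayPt) :
    (tet a b c d s t u v).1 i = (if i = a then 4 * sn s else 0) + (if i = b then 4 * sn t else 0) +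
      ((if i = c then 4 * sn u else 0) + (if i = d then 4 * sn v else 0)) := by
  rw [← v2_apply a b _ _ (sn_even s t), ← v2_apply c d _ _ (sn_even u v)]; rfl

theorem dot_tet (x : GolayPt → ℤ) (a b c d : GolayPt) (s t u v : Bool) :
    dotInt x (tet a b c d s t u v).1 = 4 * (sn s * x a + sn t * x b + sn u * x c + sn v * x d) := by
  rw [tet, AddSubgroup.coe_add, dotInt_add_right, dot_v2, dot_v2]; ring

/-- four distinct points -/
structure D4 (a b c d : GolayPt) : Prop where
  ab : a ≠ b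
  ac : a ≠ c
  ad : a ≠ d
  bc : b ≠ c
  bd : b ≠ d
  cd : c ≠ d

theorem dot_tet_tet {a b c d : GolayPt} (h : D4 a b c d) (s t u v s' t' u' v' : Bool) :
    dotInt (tet a b c d s t u v).1 (tet a b c d s' t' u' v').1 =
      16 * (sn s' * sn s + sn t' * sn t + sn u' * sn u + sn v' * sn v) := by
  rw [dot_tet]
  simp only [tet_apply, if_true, h.ab, h.ac, h.ad, h.bc, h.bd, h.cd, h.ab.symm, h.ac.symm,
    h.ad.symm, h.bc.symm, h.bd.symm, h.cd.symm, if_false]
  ring

theorem norm_tet {a b c d : GolayPt} (h : D4 a b c d) (s t u v : Bool) :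
    sqNorm (tet a b c d s t u v).1 = 64 := by
  rw [← dotInt_self, dot_tet_tet h]; simp only [sn_sq]; norm_num

theorem tet_cong (a b c d : GolayPt) {s t u v s' t' u' v' : Bool}
    (h : (s ^^ t ^^ u ^^ v) = (s' ^^ t' ^^ u' ^^ v')) :
    ∃ z : Λ, tet a b c d s t u v - tet a b c d s' t' u' v' = (2 : ℕ) • z := by
  refine ⟨mkL _ (isL_four (fun i => (if i = a then (sn s - sn s') / 2 else 0) +
    (if i = b then (sn t - sn t') / 2 else 0) + ((if i = c then (sn u - sn u') / 2 else 0) +
    (if i = d then (sn v - sn v') / 2 else 0))) ?_), Λ_ext fun i => ?_⟩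
  · simp only [Finset.sum_add_distrib, Finset.sum_ite_eq', Finset.mem_univ, if_true]
    revert s t u v s' t' u' v'; decide
  · have e1 := sn_sub s s'
    have e2 := sn_sub t t'
    have e3 := sn_sub u u'
    have e4 := sn_sub v v'
    rw [two_nsmul]
    simp only [AddSubgroup.coe_sub, AddSubgroup.coe_add, Pi.sub_apply, Pi.add_apply, tet_apply,
      coe_mkL]
    split_ifs <;> omega

theorem perm_tet (σ : M24) (a b c d : GolayPt) (s t u v : Bool) :
    permElt σ • tet a b c d s t u v = tet (σ.1 a) (σ.1 b) (σ.1 c) (σ.1 d) s t u v := by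
  rw [tet, smul_add, permElt_v2, permElt_v2]; rfl

theorem sg_tet (w : W) {a b c d : GolayPt} (h : D4 a b c d) (s t u v : Bool) :
    sg w • tet a b c d s t u v = tet a b c d (s ^^ decide (w.1 a = 1)) (t ^^ decide (w.1 b = 1))
      (u ^^ decide (w.1 c = 1)) (v ^^ decide (w.1 d = 1)) := Λ_ext fun i => by
  rw [sg_apply, tet_apply, tet_apply]
  by_cases h1 : i = a
  · subst h1; by_cases e : w.1 i = 1 <;> simp [e, h.ab, h.ac, h.ad, sn_not]
  by_cases h2 : i = b
  · subst h2; by_cases e : w.1 i = 1 <;> simp [e, h1, h.bc, h.bd, sn_not]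
  by_cases h3 : i = c
  · subst h3; by_cases e : w.1 i = 1 <;> simp [e, h1, h2, h.cd, sn_not]
  by_cases h4 : i = d
  · subst h4; by_cases e : w.1 i = 1 <;> simp [e, h1, h2, h3, sn_not]
  simp [h1, h2, h3, h4]

/-- the base vector -/
def f0 : Λ := tet (pt 0) (pt 1) (pt 2) (pt 3) false false false false

theorem d4_std : D4 (pt 0) (pt 1) (pt 2) (pt 3) := by constructor <;> decide

/-- code words from their first twelve coordinates -/
def wd (m : ℕ) : W := ⟨word (enc m), word_enc_mem m⟩

theorem D4.inj {a b c d : GolayPt} (h : D4 a b c d) : Function.Injective ![a, b, c, d] := by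
  intro i j
  fin_cases i <;> fin_cases j <;>
    simp [h.ab, h.ac, h.ad, h.bc, h.bd, h.cd, h.ab.symm, h.ac.symm, h.ad.symm, h.bc.symm,
      h.bd.symm, h.cd.symm]

theorem tet_reach {a b c d : GolayPt} (h : D4 a b c d) (s t u v : Bool) :
    ∃ n ∈ N0, n • tet a b c d s t u v = f0 := by
  obtain ⟨σ, hσ, e⟩ := M24_transOn4 ![a, b, c, d] ![pt 0, pt 1, pt 2, pt 3] h.inj d4_std.inj
    (fun _ => trivial) (fun _ => trivial)
  have e0 : σ a = pt 0 := e 0
  have e1 : σ b = pt 1 := e 1
  have e2 : σ c = pt 2 := e 2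
  have e3 : σ d = pt 3 := e 3
  have : ∀ s t u v : Bool, ∃ m < 16, (s ^^ decide (word (enc m) (pt 0) = 1)) = false ∧
      (t ^^ decide (word (enc m) (pt 1) = 1)) = false ∧
      (u ^^ decide (word (enc m) (pt 2) = 1)) = false ∧
      (v ^^ decide (word (enc m) (pt 3) = 1)) = false := by decide +kernel
  obtain ⟨m, -, h0, h1, h2, h3⟩ := this s t u v
  refine ⟨sg (wd m) * permElt ⟨σ, hσ⟩, ⟨_, _, rfl⟩, ?_⟩
  rw [mul_smul, perm_tet]
  simp only [e0, e1, e2, e3]
  rw [sg_tet _ d4_std]
  rw [f0]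
  congr 1

theorem shape6 {y : GolayPt → ℤ} (hy : IsL y) (hn : sqNorm y = 64) (h7 : y none ≤ 7)
    (h3 : ∀ a b c, D4 none a b c → |y a| + |y b| + |y c| ≤ y none) :
    y none = 6 ∧ ∃ a b c, D4 none a b c ∧ |y a| = 2 ∧ |y b| = 2 ∧ |y c| = 2 := by
  let S1 : Finset GolayPt := Finset.univ.erase none
  have c1 : S1.card = 23 := card_erase_pt none
  obtain ⟨a, ha, ha'⟩ := S1.exists_max_image (fun i => |y i|) (Finset.card_pos.1 (by omega))
  have c2 : (S1.erase a).card = 22 := by rw [Finset.card_erase_of_mem ha, c1]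
  obtain ⟨b, hb, hb'⟩ := (S1.erase a).exists_max_image (fun i => |y i|)
    (Finset.card_pos.1 (by omega))
  have c3 : ((S1.erase a).erase b).card = 21 := by rw [Finset.card_erase_of_mem hb, c2]
  obtain ⟨c, hc, hc'⟩ := ((S1.erase a).erase b).exists_max_image (fun i => |y i|)
    (Finset.card_pos.1 (by omega))
  have hd : D4 none a b c := by
    simp only [S1, Finset.mem_erase] at ha hb hc
    exact ⟨ha.1.symm, hb.2.1.symm, hc.2.2.1.symm, hb.1.symm, hc.2.1.symm, hc.1.symm⟩
  have e : sqNorm y = y none ^ 2 + (|y a| ^ 2 + (|y b| ^ 2 +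
      ∑ i ∈ (S1.erase a).erase b, y i ^ 2)) := by
    rw [sqNorm, sum_split _ none, ← Finset.add_sum_erase _ _ ha, ← Finset.add_sum_erase _ _ hb,
      sq_abs, sq_abs]
  have r1 : ∑ i ∈ (S1.erase a).erase b, y i ^ 2 ≤ 21 * |y c| ^ 2 := by
    have := Finset.sum_le_card_nsmul ((S1.erase a).erase b) (fun i => y i ^ 2) (|y c| ^ 2)
      fun i hi => by
        rw [← sq_abs]; exact pow_le_pow_left₀ (abs_nonneg _) (hc' i hi) 2
    rw [c3] at this; simpa using this
  have r2 : y none % 2 = 1 → 21 ≤ ∑ i ∈ (S1.erase a).erase b, y i ^ 2 := by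
    intro h
    have := Finset.card_nsmul_le_sum ((S1.erase a).erase b) (fun i => y i ^ 2) 1
      fun i _ => one_le_sq_of_odd (by rw [hy.parity i none, h])
    rw [c3] at this; simpa using this
  have r3 : 0 ≤ ∑ i ∈ (S1.erase a).erase b, y i ^ 2 := Finset.sum_nonneg fun i _ => sq_nonneg _
  have p1 : |y a| % 2 = y none % 2 := by rw [← hy.parity a none]; rcases abs_cases (y a) with h | h <;> omega
  have p2 : |y b| % 2 = y none % 2 := by rw [← hy.parity b none]; rcases abs_cases (y b) with h | h <;> omega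
  have p3 : |y c| % 2 = y none % 2 := by rw [← hy.parity c none]; rcases abs_cases (y c) with h | h <;> omega
  have q1 : |y b| ≤ |y a| := ha' b (Finset.mem_of_mem_erase hb)
  have q2 : |y c| ≤ |y b| := hb' c (Finset.mem_of_mem_erase hc)
  have q3 := h3 a b c hd
  have q4 := abs_nonneg (y c)
  have key : y none = 6 ∧ |y a| = 2 ∧ |y b| = 2 ∧ |y c| = 2 := by
    rw [hn] at e
    generalize ∑ i ∈ (S1.erase a).erase b, y i ^ 2 = R at *
    generalize |y a| = A at *
    generalize |y b| = B at *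
    generalize |y c| = C at *
    generalize y none = m at *
    have : 0 ≤ m := by omega
    have : A ≤ 7 := by omega
    have : 0 ≤ A := by omega
    have : B ≤ 3 := by omega
    have : 0 ≤ B := by omega
    have : C ≤ 2 := by omega
    interval_cases m <;> interval_cases A <;> interval_cases B <;> interval_cases C <;> omega
  exact ⟨key.1, a, b, c, hd, key.2⟩

theorem frame_coord {g : Co0} {f : Λ} {j : GolayPt} (h : g • f = e8 j ∨ g • f = -e8 j) (y : Λ) :
    8 * |(g • y : Λ).1 j| = |dotInt y.1 f.1| := by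
  rw [← dot_smul g]
  rcases h with h | h
  · rw [h, dot_e8, abs_mul]; rfl
  · rw [h, AddSubgroup.coe_neg, dotInt_neg_right, dot_e8, abs_neg, abs_mul]; rfl

theorem frame_ne {g : Co0} {f f' : Λ} {j k : GolayPt} (h : g • f = e8 j ∨ g • f = -e8 j)
    (h' : g • f' = e8 k ∨ g • f' = -e8 k) (h0 : dotInt f'.1 f.1 = 0) : j ≠ k := by
  rintro rfl
  have := frame_coord h f'
  rw [h0] at this
  rcases h' with h' | h' <;> rw [h'] at this <;> simp [e8_apply] at this

theorem gen_top {F : Subgroup Co0} (hN : N0 ≤ F) {g0 : Co0} (hg0 : g0 ∈ F)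
    (h0 : g0 • f0 = e8 none) : F = ⊤ := by
  rw [eq_top_iff]
  intro a _
  let x : Λ := a • e8 none
  have hx : sqNorm x.1 = 64 := by rw [norm_smul, norm_e8]
  obtain ⟨m, ⟨g1, hg1, hm⟩, hmax⟩ := Int.exists_greatest_of_bdd
    (P := fun m => ∃ g ∈ F, (g • x : Λ).1 none = m) ⟨8, by
      rintro _ ⟨g, -, rfl⟩
      have := sq_le_sqNorm (g • x : Λ).1 none
      rw [norm_smul, hx] at this
      nlinarith⟩ ⟨_, 1, F.one_mem, rfl⟩
  have h4 : ∀ g ∈ F, ∀ a b c d, D4 a b c d → |(g • x : Λ).1 a| + |(g • x : Λ).1 b| +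
      |(g • x : Λ).1 c| + |(g • x : Λ).1 d| ≤ 2 * m := by
    intro g hg a b c d h
    obtain ⟨s, hs⟩ := exists_sn ((g • x : Λ).1 a)
    obtain ⟨t, ht⟩ := exists_sn ((g • x : Λ).1 b)
    obtain ⟨u, hu⟩ := exists_sn ((g • x : Λ).1 c)
    obtain ⟨v, hv⟩ := exists_sn ((g • x : Λ).1 d)
    obtain ⟨n, hn, e⟩ := tet_reach h s t u v
    have e1 := coord_of_dot (g := g0 * n) (x := g • x) (p := none) (by rw [mul_smul, e, h0])
    rw [dot_tet, hs, ht, hu, hv, ← mul_smul] at e1
    have := hmax _ ⟨_, F.mul_mem (F.mul_mem hg0 (hN hn)) hg, rfl⟩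
    omega
  have h8 : m = 8 := by
    by_contra hne
    have hle : m ≤ 8 := by
      have := sq_le_sqNorm (g1 • x : Λ).1 none
      rw [norm_smul, hx, hm] at this
      nlinarith
    obtain ⟨h6, a, b, c, hd, ea, eb, ec⟩ := shape6 (isL_coe (g1 • x)) (by rw [norm_smul, hx])
      (by omega) (fun a b c hd => by
        have := h4 g1 hg1 _ _ _ _ hd
        have := le_abs_self ((g1 • x : Λ).1 none)
        omega)
    obtain ⟨t, ht⟩ := exists_sn ((g1 • x : Λ).1 a)
    obtain ⟨u, hu⟩ := exists_sn ((g1 • x : Λ).1 b)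
    obtain ⟨v, hv⟩ := exists_sn ((g1 • x : Λ).1 c)
    obtain ⟨n, hn, e⟩ := tet_reach hd false t u (!v)
    have e1 : (g0 * n) • tet none a b c false t u (!v) = e8 none := by rw [mul_smul, e, h0]
    have fr : ∀ t' u' v' : Bool, (false ^^ t' ^^ u' ^^ v') = (false ^^ t ^^ u ^^ !v) →
        ∃ j, (g0 * n) • tet none a b c false t' u' v' = e8 j ∨
          (g0 * n) • tet none a b c false t' u' v' = -e8 j := by
      intro t' u' v' hp
      obtain ⟨z, hz⟩ := tet_cong none a b c hp
      refine mem_stdFrame (p := none) (z := (g0 * n) • z) (by rw [norm_smul, norm_tet hd]) ?_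
      rw [← e1, ← smul_sub, hz, two_nsmul, two_nsmul, smul_add]
    obtain ⟨j, hj⟩ := fr t (!u) v (by cases t <;> cases u <;> cases v <;> rfl)
    obtain ⟨k, hk⟩ := fr (!t) u v (by cases t <;> cases u <;> cases v <;> rfl)
    have n1 := frame_ne (Or.inl e1) hj (by
      rw [dot_tet_tet hd]; cases t <;> cases u <;> cases v <;> rfl)
    have n2 := frame_ne (Or.inl e1) hk (by
      rw [dot_tet_tet hd]; cases t <;> cases u <;> cases v <;> rfl)
    have n3 := frame_ne hj hk (by
      rw [dot_tet_tet hd]; cases t <;> cases u <;> cases v <;> rfl)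
    have c1 := frame_coord (Or.inl e1) (g1 • x)
    have c2 := frame_coord hj (g1 • x)
    have c3 := frame_coord hk (g1 • x)
    have s0 : sn false = 1 := rfl
    rw [dot_tet, sn_not, neg_mul, ht, hu, hv, ea, eb, ec, h6, s0, ← mul_smul] at c1 c2 c3
    norm_num at c1 c2 c3
    have hg : g0 * n * g1 ∈ F := F.mul_mem (F.mul_mem hg0 (hN hn)) hg1
    have hz : ∀ i, i ≠ none → i ≠ j → i ≠ k → ((g0 * n * g1) • x : Λ).1 i = 0 := by
      intro i i1 i2 i3
      have := h4 _ hg none j k i ⟨n1, n2, i1.symm, n3, i2.symm, i3.symm⟩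
      have h1 := abs_nonneg (((g0 * n * g1) • x : Λ).1 i)
      exact abs_eq_zero.1 (by omega)
    have hs : sqNorm ((g0 * n * g1) • x : Λ).1 = ∑ i ∈ ({none, j, k} : Finset GolayPt),
        ((g0 * n * g1) • x : Λ).1 i ^ 2 := by
      refine (Finset.sum_subset (Finset.subset_univ _) fun i _ hi => ?_).symm
      simp only [Finset.mem_insert, Finset.mem_singleton, not_or] at hi
      rw [hz i hi.1 hi.2.1 hi.2.2]; rfl
    rw [norm_smul, hx, Finset.sum_insert (by simp [n1, n2]), Finset.sum_pair n3,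
      ← sq_abs, ← sq_abs (((g0 * n * g1) • x : Λ).1 j), ← sq_abs (((g0 * n * g1) • x : Λ).1 k)] at hs
    have d1 : |((g0 * n * g1) • x : Λ).1 none| = 4 := by omega
    have d2 : |((g0 * n * g1) • x : Λ).1 j| = 4 := by omega
    have d3 : |((g0 * n * g1) • x : Λ).1 k| = 4 := by omega
    rw [d1, d2, d3] at hs
    norm_num at hs
  have e : (g1 * a) • e8 none = e8 none := by
    rw [mul_smul]; exact eq_e8 (by rw [norm_smul, hx]) (hm.trans h8)
  have := F.mul_mem (F.inv_mem hg1) (hN (mem_N0_of_e8 (Or.inl e)))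
  simpa using this

theorem sep_even : Sep {w : W | (false ^^ decide (w.1 (pt 0) = 1) ^^
    (false ^^ decide (w.1 (pt 1) = 1)) ^^ (false ^^ decide (w.1 (pt 2) = 1)) ^^
    (false ^^ decide (w.1 (pt 3) = 1))) = (false ^^ false ^^ false ^^ false)} := by
  have : ∀ p q : GolayPt, p ≠ q → ∃ m ∈ [3, 5, 9, 16, 32, 64, 128, 256, 512, 1024, 2048],
      (false ^^ decide (word (enc m) (pt 0) = 1) ^^
      (false ^^ decide (word (enc m) (pt 1) = 1)) ^^ (false ^^ decide (word (enc m) (pt 2) = 1)) ^^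
      (false ^^ decide (word (enc m) (pt 3) = 1))) = (false ^^ false ^^ false ^^ false) ∧
      word (enc m) p ≠ word (enc m) q := by decide +kernel
  intro p q h
  obtain ⟨m, -, h1, h2⟩ := this p q h
  exact ⟨wd m, h1, h2⟩

theorem cent_f0 {z : Co0} (h : ∀ n ∈ N0, (∃ y : Λ, n • f0 - f0 = (2 : ℕ) • y) → z * n = n * z) :
    z = 1 ∨ z = negElt := by
  obtain ⟨d, rfl⟩ := mem_V0_of_comm sep_even (g := z) fun w hw => h _ (sg_mem_N0 w) (by
    rw [f0, sg_tet _ d4_std]; exact tet_cong _ _ _ _ hw)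
  by_contra hc
  push Not at hc
  have h1 : ¬ (supp d).card < 8 := fun h => hc.1 (by rw [eq_zero_of_card h, sg_zero])
  have h2 : ¬ 16 < (supp d).card := fun h => hc.2 (by rw [eq_all1_of_card h, sg_all1])
  let T : Finset GolayPt := {pt 0, pt 1, pt 2, pt 3}
  have hT : T.card = 4 := by decide +kernel
  obtain ⟨i, hi, hi'⟩ : ∃ i, i ∈ supp d ∧ i ∉ T := by
    by_contra hh
    push Not at hh
    have := Finset.card_le_card (show supp d ⊆ T from hh)
    omega
  obtain ⟨j, hj, hj'⟩ : ∃ j, j ∉ supp d ∧ j ∉ T := by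
    by_contra hh
    push Not at hh
    have := Finset.card_le_card (show (supp d)ᶜ ⊆ T from fun j hj => hh j (by simpa using hj))
    rw [Finset.card_compl, card_golayPt] at this
    omega
  have inj : ∀ i, i ∉ T → Function.Injective ![pt 0, pt 1, pt 2, pt 3, i] := by
    decide +kernel
  obtain ⟨σ, hσ, e⟩ := M24_five_trans _ _ (inj i hi') (inj j hj')
  have e0 : σ (pt 0) = pt 0 := e 0
  have e1 : σ (pt 1) = pt 1 := e 1
  have e2 : σ (pt 2) = pt 2 := e 2
  have e3 : σ (pt 3) = pt 3 := e 3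
  have e4 : σ i = j := e 4
  have := h (permElt ⟨σ, hσ⟩) (perm_mem_N0 _) ⟨0, by
    rw [f0, perm_tet]; simp only [e0, e1, e2, e3]; simp⟩
  rw [perm_sg] at this
  have h3 := sg_injective (mul_right_cancel this)
  have h4 := smul_apply' ⟨σ, hσ⟩ d i
  rw [← h3] at h4
  simp only [e4] at h4
  rw [mem_supp] at hi hj
  exact hj (h4.trans hi)

theorem eq_of_fix_N0 (β : Co0 ≃* Co0) (hβ : ∀ n ∈ N0, β n = n) (a : Co0) : β a = a := by
  have hneg : β negElt = negElt := hβ _ neg_mem_N0
  let F' : Subgroup Co0 :=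
    { carrier := {a | β a = a ∨ β a = a * negElt}
      one_mem' := Or.inl (map_one β)
      mul_mem' := by
        intro a b ha hb
        show β (a * b) = _ ∨ β (a * b) = _
        rw [map_mul]
        rcases ha with ha | ha <;> rcases hb with hb | hb <;> rw [ha, hb]
        · left; rfl
        · right; rw [mul_assoc]
        · right; rw [mul_assoc, ← negElt_comm, mul_assoc]
        · left
          rw [mul_assoc, ← mul_assoc negElt, ← negElt_comm, mul_assoc b, negElt_mul_self, mul_one]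
      inv_mem' := by
        intro a ha
        show β a⁻¹ = _ ∨ β a⁻¹ = _
        rw [map_inv]
        rcases ha with ha | ha <;> rw [ha]
        · left; rfl
        · right
          rw [mul_inv_rev, inv_eq_of_mul_eq_one_right negElt_mul_self, negElt_comm] }
  obtain ⟨g0, h0⟩ := trans8 f0 (norm_tet d4_std _ _ _ _) none
  have hg0 : g0 ∈ F' := by
    have := cent_f0 (z := g0⁻¹ * β g0) fun n hn ⟨y, hy⟩ => by
      have h1 : g0 * n * g0⁻¹ ∈ N0 := by
        obtain ⟨j, hj⟩ := mem_stdFrame (y := (g0 * n * g0⁻¹) • e8 none) (z := g0 • y) (p := none)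
          (by rw [norm_smul, norm_e8]) (by
            rw [← h0, ← mul_smul, inv_mul_cancel_right, mul_smul, ← smul_sub, hy, two_nsmul,
              two_nsmul, smul_add])
        exact mem_N0_of_e8 hj
      have h2 := hβ _ h1
      rw [map_mul, map_mul, map_inv, hβ n hn] at h2
      calc g0⁻¹ * β g0 * n = g0⁻¹ * (β g0 * n * (β g0)⁻¹) * β g0 := by group
        _ = n * (g0⁻¹ * β g0) := by rw [h2]; group
    rcases this with h | h
    · left; exact (inv_mul_eq_one.1 h).symm
    · right; rw [← h]; group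
  have hF' := gen_top (F := F') (fun n hn => Or.inl (hβ n hn)) hg0 h0
  have hall : ∀ a, β a = a ∨ β a = a * negElt := fun a => (hF' ▸ Subgroup.mem_top a : a ∈ F')
  let F : Subgroup Co0 := β.toMonoidHom.eqLocus (MonoidHom.id _)
  have hF : ∀ a, a ∈ F ↔ β a = a := fun a => Iff.rfl
  have hn : F.Normal := ⟨fun a ha g => by
    rw [hF] at ha ⊢
    rw [map_mul, map_mul, map_inv, ha]
    rcases hall g with h | h <;> rw [h]
    rw [mul_inv_rev, inv_eq_of_mul_eq_one_right negElt_mul_self, mul_assoc g, ← negElt_comm,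
      mul_assoc, mul_assoc, ← mul_assoc negElt, negElt_mul_self, one_mul, mul_assoc]⟩
  have hs := simple_Co1
  have hle : Subgroup.center Co0 ≤ F := fun z hz => by
    rcases mem_center_Co0.1 hz with rfl | rfl
    · exact F.one_mem
    · exact hneg
  rcases (hn.map (QuotientGroup.mk' (Subgroup.center Co0))
    (QuotientGroup.mk'_surjective _)).eq_bot_or_eq_top with h | h
  · exfalso
    have : permElt shift ∈ Subgroup.center Co0 := by
      rw [← QuotientGroup.ker_mk' (Subgroup.center Co0), MonoidHom.mem_ker, ← Subgroup.mem_bot, ← h]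
      exact ⟨_, hβ _ (perm_mem_N0 _), rfl⟩
    have ho := order_shift
    rcases mem_center_Co0.1 this with h | h
    · rw [h, orderOf_one] at ho; omega
    · have := (perm_eq_sg (h.trans sg_all1.symm)).1
      rw [this, perm_one, orderOf_one] at ho; omega
  · have := congrArg (Subgroup.comap (QuotientGroup.mk' (Subgroup.center Co0))) h
    rw [Subgroup.comap_map_eq, QuotientGroup.ker_mk', sup_eq_left.2 hle, Subgroup.comap_top] at this
    exact (hF a).1 (this ▸ Subgroup.mem_top a)

end C0
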