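import Cfsg.Agent.C0.B
import Cfsg.Agent.C0.C

/-! Every automorphism of the Conway group is inner. -/

set_option autoImplicit false

namespace C0
open Cfsg H3 MulAction H2

theorem le_of_offender {G : Type*} [Group G] {φ : Co0 →* G} (hφ : Function.Injective φ)
    {E : Subgroup G} [Finite E] (hE : ∀ e ∈ E, e * e = 1)
    (h1 : ∀ e ∈ E, ∃ σ : M24, ∀ w, e * φ (sg w) * e⁻¹ = φ (sg (σ • w)))
    (h2 : ∀ e ∈ E, (∀ w, e * φ (sg w) = φ (sg w) * e) → e ∈ V0.map φ)
    (hc : 4096 * Nat.card ↥(E ⊓ V0.map φ) ≤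
      Nat.card E * Nat.card ↥(V0.map φ ⊓ Subgroup.centralizer (E : Set G))) : E ≤ V0.map φ := by
  choose f hf using h1
  let ρ : E →* M24 := MonoidHom.mk' (fun e => f e.1 e.2) fun a b => eq_of_smul fun w =>
    sg_injective (hφ (by
      rw [← hf, mul_smul, ← hf, ← hf, Subgroup.coe_mul]; group))
  have hρ : ∀ (e : E) w, e.1 * φ (sg w) * e.1⁻¹ = φ (sg (ρ e • w)) := fun e w => hf e.1 e.2 w
  have hker : ρ.ker = (V0.map φ).subgroupOf E := by
    ext e
    rw [MonoidHom.mem_ker, Subgroup.mem_subgroupOf]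
    constructor
    · intro h
      refine h2 _ e.2 fun w => ?_
      have := hρ e w
      rw [h, one_smul] at this
      exact mul_inv_eq_iff_eq_mul.1 this
    · rintro ⟨_, ⟨d, rfl⟩, hd⟩
      refine eq_one_of_smul fun w => sg_injective (hφ ?_)
      rw [← hρ, ← hd, ← map_mul, sg_comm, map_mul, mul_inv_cancel_right]
  by_cases hb : ρ.range = ⊥
  · intro e he
    have : (⟨e, he⟩ : E) ∈ ρ.ker := by
      rw [MonoidHom.mem_ker, ← Subgroup.mem_bot, ← hb]; exact ⟨_, rfl⟩
    rwa [hker] at this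
  exfalso
  have h3 := no_offender (E := ρ.range) (by
    rintro _ ⟨e, rfl⟩
    rw [← map_mul, show e * e = 1 from Subtype.ext (hE _ e.2), map_one]) hb
  have h4 : Nat.card {w : W // ∀ e ∈ ρ.range, e • w = w} =
      Nat.card ↥(V0.map φ ⊓ Subgroup.centralizer (E : Set G)) := by
    refine Nat.card_congr (Equiv.ofBijective (fun w => ⟨φ (sg w.1), ⟨_, sg_mem _, rfl⟩, ?_⟩) ⟨?_, ?_⟩)
    · intro e he
      have := hρ ⟨e, he⟩ w.1
      rw [w.2 _ ⟨_, rfl⟩] at this
      exact mul_inv_eq_iff_eq_mul.1 this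
    · intro v w h
      exact Subtype.ext (sg_injective (hφ (congrArg Subtype.val h)))
    · rintro ⟨_, ⟨_, ⟨w, rfl⟩, rfl⟩, hw⟩
      refine ⟨⟨w, ?_⟩, rfl⟩
      rintro _ ⟨e, rfl⟩
      apply sg_injective
      apply hφ
      rw [← hρ, hw e.1 e.2, mul_inv_cancel_right]
  have h5 : Nat.card E = Nat.card ↥(E ⊓ V0.map φ) * Nat.card ρ.range := by
    rw [← Subgroup.index_ker, ← ρ.ker.card_mul_index, hker]
    congr 1
    rw [← Subgroup.inf_subgroupOf_left]
    exact Nat.card_congr (Subgroup.subgroupOfEquivOfLe inf_le_left).toEquiv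
  have h6 : 0 < Nat.card ↥(E ⊓ V0.map φ) := by
    have : Finite ↥(E ⊓ V0.map φ) := Finite.of_injective _ (Subgroup.inclusion_injective inf_le_left)
    exact Nat.card_pos
  rw [h4] at h3
  rw [h5, mul_assoc, mul_comm 4096] at hc
  have := Nat.le_of_mul_le_mul_left hc h6
  omega

theorem V0_comm {a b : Co0} (ha : a ∈ V0) (hb : b ∈ V0) : a * b = b * a := by
  obtain ⟨v, rfl⟩ := ha
  obtain ⟨w, rfl⟩ := hb
  exact sg_comm v w

/-- `V0` is the only elementary abelian subgroup of its order in the monomial group. -/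
theorem eq_V0 {E : Subgroup Co0} (hE : ∀ e ∈ E, e * e = 1) (hN : E ≤ N0)
    (hc : Nat.card E = 4096) : E ≤ V0 := by
  have := le_of_offender (φ := MonoidHom.id Co0) (fun _ _ h => h) hE (fun e he => by
    obtain ⟨d, σ, rfl⟩ := hN he
    exact ⟨σ, mono_conj_sg d σ⟩) (fun e _ h => by
      rw [Subgroup.map_id]; exact mem_V0_of_comm sep_univ fun w _ => h w) (by
      rw [hc, Subgroup.map_id]
      refine Nat.mul_le_mul_left _ (Subgroup.card_le_of_le ?_)
      exact fun x hx => ⟨hx.2, fun y hy => comm_of_sq' hE hy hx.1⟩)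
  rwa [Subgroup.map_id] at this

theorem exists_conj_pow {G : Type*} [Group G] [Finite G] {p : ℕ} [Fact p.Prime]
    (h2 : ¬ p ^ 2 ∣ Nat.card G) {a b : G} (ha : orderOf a = p) (hb : orderOf b = p) :
    ∃ (g : G) (k : ℕ), g * a * g⁻¹ = b ^ k := by
  obtain ⟨P, hP⟩ := (IsPGroup.of_card (p := p) (G := Subgroup.zpowers a) (n := 1)
    (by rw [Nat.card_zpowers, ha, pow_one])).exists_le_sylow
  obtain ⟨Q, hQ⟩ := (IsPGroup.of_card (p := p) (G := Subgroup.zpowers b) (n := 1)
    (by rw [Nat.card_zpowers, hb, pow_one])).exists_le_sylow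
  obtain ⟨g, hg⟩ := exists_smul_eq G P Q
  have hQ' : Subgroup.zpowers b = Q := by
    apply Subgroup.eq_of_le_of_card_ge hQ
    obtain ⟨k, hk⟩ := Q.isPGroup'.exists_card_eq
    rw [Nat.card_zpowers, hb, hk]
    have h3 : p ^ k ∣ Nat.card G := hk ▸ Subgroup.card_subgroup_dvd_card _
    have : k ≤ 1 := by
      by_contra hc
      exact h2 ((pow_dvd_pow p (by omega)).trans h3)
    calc p ^ k ≤ p ^ 1 := Nat.pow_le_pow_right (Fact.out : p.Prime).pos this
      _ = p := pow_one p
  have h1 : g * a * g⁻¹ ∈ (g • P : Sylow p G) := by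
    rw [← SetLike.mem_coe, Sylow.coe_smul]
    exact ⟨a, hP (Subgroup.mem_zpowers a), rfl⟩
  rw [hg] at h1
  have h3 : g * a * g⁻¹ ∈ Subgroup.zpowers b := hQ' ▸ h1
  rw [← mem_powers_iff_mem_zpowers] at h3
  obtain ⟨k, hk⟩ := h3
  exact ⟨g, k, hk.symm⟩

theorem fix_apply {σ : M24} {w : W} (h : σ • w = w) (p : GolayPt) : w.1 (σ.1 p) = w.1 p := by
  conv_lhs => rw [← h]
  exact smul_apply' σ w p

theorem fix_pow {σ : M24} {w : W} (h : σ • w = w) (k : ℕ) : σ ^ k • w = w :=
  (stabilizer M24 w).pow_mem h k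

theorem fix_of_apply {σ : M24} {w : W} (h : ∀ p, w.1 (σ.1 p) = w.1 p) : σ • w = w :=
  W_ext fun p => by
    obtain ⟨q, rfl⟩ := σ.1.surjective p
    rw [smul_apply', h]

theorem triv_of_const {w : W} {S : Finset GolayPt} (hS : 16 < S.card) {p0 : GolayPt}
    (h : ∀ p ∈ S, w.1 p = w.1 p0) : w = 0 ∨ w = all1 := by
  rcases zmod2_cases (w.1 p0) with e | e
  · left
    apply eq_zero_of_card
    have : supp w ⊆ Sᶜ := fun p hp => Finset.mem_compl.2 fun hp' => by
      rw [mem_supp, h p hp', e] at hp; exact absurd hp (by decide)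
    have := Finset.card_le_card this
    rw [Finset.card_compl, card_golayPt] at this
    omega
  · right
    apply eq_all1_of_card
    have : S ⊆ supp w := fun p hp => mem_supp.2 ((h p hp).trans e)
    have := Finset.card_le_card this
    omega

theorem fix_shift {w : W} (h : shift • w = w) : w = 0 ∨ w = all1 := by
  refine triv_of_const (S := Finset.univ.erase none) (p0 := some 0) (by rw [card_erase_pt]; omega)
    fun p hp => ?_
  have : ∀ p ∈ (Finset.univ.erase none : Finset GolayPt), ∃ k < 23,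
      p = (shift ^ k).1 (some 0) := by decide +kernel
  obtain ⟨k, -, rfl⟩ := this p hp
  exact fix_apply (fix_pow h k) _

/-- the inversion -/
def pinv : M24 := ⟨projInv, gamma_mem⟩

/-- the twisted cube map -/
noncomputable def ctw : M24 := ⟨cubeTwist, delta_mem⟩

theorem fix_dbl_pinv {w : W} (h : dbl11 • w = w) (h' : pinv • w = w) : w = 0 ∨ w = all1 := by
  refine triv_of_const (S := (Finset.univ.erase none).erase (some 0)) (p0 := some 1)
    (by decide +kernel) fun p hp => ?_
  have : ∀ p ∈ ((Finset.univ.erase none).erase (some 0) : Finset GolayPt), ∃ k < 11,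
      p = (dbl11 ^ k).1 (some 1) ∨ p = (dbl11 ^ k).1 (pinv.1 (some 1)) := by decide +kernel
  obtain ⟨k, -, rfl | rfl⟩ := this p hp
  · exact fix_apply (fix_pow h k) _
  · rw [fix_apply (fix_pow h k), fix_apply h']

theorem fix_ctw {w : W} (h : dbl11 • w = w) : ctw • w = w := by
  refine fix_of_apply fun p => ?_
  have : ∀ p, ∃ k < 11, cubeTwistFun p = (dbl11 ^ k).1 p := by decide +kernel
  obtain ⟨k, -, e⟩ := this p
  have e' : ctw.1 p = (dbl11 ^ k).1 p := e
  rw [e', fix_apply (fix_pow h k)]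

theorem rel1 : dbl11 * shift = shift ^ 2 * dbl11 := Subtype.ext (by decide +kernel)
theorem rel2 : dbl11 ^ 11 = 1 := Subtype.ext (by decide +kernel)
theorem rel3 : pinv * dbl11 = dbl11 ^ 10 * pinv := Subtype.ext (by decide +kernel)
theorem rel4 : pinv * pinv = 1 := Subtype.ext (by decide +kernel)
theorem rel5 : (pinv * shift) ^ 3 = 1 := Subtype.ext (by decide +kernel)
theorem rel6 : ctw * dbl11 = dbl11 ^ 3 * ctw := Subtype.ext (Equiv.ext (by
  show ∀ p, cubeTwistFun (dbl11.1 p) = (dbl11 ^ 3).1 (cubeTwistFun p)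
  decide +kernel))
theorem rel7 : ctw ^ 5 = 1 := Subtype.ext (Equiv.ext (by
  show ∀ p, cubeTwistFun (cubeTwistFun (cubeTwistFun (cubeTwistFun (cubeTwistFun p)))) = p
  decide +kernel))
theorem rel8 : shift ^ 23 = 1 := Subtype.ext (by decide +kernel)

section
variable {β : Co0 ≃* Co0} (hβ : ∀ w, β (sg w) = sg w)
include hβ

theorem exists_der (σ : M24) : ∃ d, β (permElt σ) = permElt σ * sg d := by
  obtain ⟨d, hd⟩ := mem_V0_of_comm sep_univ (g := (permElt σ)⁻¹ * β (permElt σ)) fun w _ => by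
    have h1 := congrArg β (perm_sg σ w)
    rw [map_mul, map_mul, hβ, hβ, ← perm_conj_sg] at h1
    rw [mul_assoc, h1]; group
  exact ⟨d, by rw [hd]; group⟩

omit hβ in
theorem der_fix {σ ρ : M24} {k : ℕ} {d : W} (hd : β (permElt σ) = permElt σ * sg d)
    (hρ : β (permElt ρ) = permElt ρ) (h : σ * ρ = ρ ^ k * σ) : ρ • d = d := by
  have h1 := congrArg (fun x => β (permElt x)) h
  simp only [perm_mul, perm_pow, map_mul, map_pow, hd, hρ] at h1
  rw [← mul_assoc, ← perm_pow, ← perm_mul, ← h, perm_mul, mul_assoc, mul_assoc, perm_sg] at h1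
  exact (sg_injective (mul_right_cancel (mul_left_cancel h1))).symm

omit hβ in
theorem der_zero {σ : M24} {k : ℕ} {d : W} (hd : β (permElt σ) = permElt σ * sg d)
    (h : σ • d = d) (hk : σ ^ (2 * k + 1) = 1) : β (permElt σ) = permElt σ := by
  have hc : Commute (permElt σ) (sg d) := by rw [Commute, SemiconjBy, perm_sg, h]
  have h1 := congrArg (fun x => β (permElt x)) hk
  simp only [perm_pow, map_pow, hd, perm_one, map_one] at h1
  rw [hc.mul_pow, ← perm_pow, hk, perm_one, one_mul, pow_succ, pow_mul, pow_two, sg_mul_self,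
    one_pow, one_mul] at h1
  rw [hd, h1, mul_one]

theorem fix_N0 {ξ : M24} (hx : β (permElt shift) = permElt ξ) : ∀ n ∈ N0, β n = n := by
  have tr : ∀ (σ : M24) {d : W}, d = 0 ∨ d = all1 → σ • d = d := by
    rintro σ _ (rfl | rfl)
    · exact smul_zero σ
    · exact smul_all1 σ
  have hs : β (permElt shift) = permElt shift := by
    obtain ⟨d, hd⟩ := exists_der hβ shift
    have : permElt (shift⁻¹ * ξ) = sg d := by rw [perm_mul, perm_inv, ← hx, hd]; group
    rw [hd, (perm_eq_sg this).2, sg_zero, mul_one]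
  have hy : β (permElt dbl11) = permElt dbl11 := by
    obtain ⟨d, hd⟩ := exists_der hβ dbl11
    exact der_zero (k := 5) hd (tr _ (fix_shift (der_fix hd hs rel1))) rel2
  have hw : β (permElt pinv) = permElt pinv := by
    obtain ⟨d, hd⟩ := exists_der hβ pinv
    have h1 : pinv • d = d := by
      have h1 := congrArg (fun x => β (permElt x)) rel4
      simp only [perm_mul, map_mul, hd, perm_one, map_one] at h1
      rw [perm_sg pinv d, mul_assoc, ← mul_assoc (permElt pinv), perm_sg, mul_assoc, ← perm_mul,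
        rel4, perm_one, mul_one, ← mul_smul, rel4, one_smul] at h1
      exact sg_injective ((eq_inv_of_mul_eq_one_left h1).trans (sg_inv d))
    have h2 := fix_dbl_pinv (der_fix hd hy rel3) h1
    have h3 : β (permElt (pinv * shift)) = permElt (pinv * shift) * sg d := by
      rw [perm_mul, map_mul, hd, hs, mul_assoc, mul_assoc, perm_sg, tr _ h2]
    have h4 := der_zero (k := 1) h3 (tr _ h2) rel5
    rw [perm_mul, map_mul, hs] at h4
    exact mul_right_cancel h4
  have hc : β (permElt ctw) = permElt ctw := by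
    obtain ⟨d, hd⟩ := exists_der hβ ctw
    exact der_zero (k := 2) hd (fix_ctw (der_fix hd hy rel6)) rel7
  have hall : ∀ σ : M24, β (permElt σ) = permElt σ := by
    let K : Subgroup M24 := (β.toMonoidHom.comp permHom).eqLocus permHom
    have hK : M24 ≤ K.map M24.subtype :=
      M24_le ⟨_, ⟨shift, hs, rfl⟩, rep_alpha⟩ ⟨_, ⟨pinv, hw, rfl⟩, rep_gamma⟩
        ⟨_, ⟨ctw, hc, rfl⟩, rep_delta⟩
    intro σ
    obtain ⟨τ, h1, h2⟩ := hK σ.2
    have : τ = σ := Subtype.ext h2
    exact this ▸ h1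
  rintro _ ⟨w, σ, rfl⟩
  rw [map_mul, hβ, hall]

end

theorem functional (f : W →+ ZMod 2) (h1 : ∀ w, f (shift • w) = f w) (h2 : f all1 = 1) (w : W) :
    f w = w.1 none := by
  let s : W := ∑ i ∈ Finset.range 23, shift ^ i • w
  have e1 : f s = f w := by
    have : ∀ i : ℕ, f (shift ^ i • w) = f w := by
      intro i
      induction i with
      | zero => simp
      | succ i ih => rw [pow_succ', mul_smul, h1, ih]
    simp only [s, map_sum, this, Finset.sum_const, Finset.card_range]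
    generalize f w = z; revert z; decide
  have e2 : s.1 none = w.1 none := by
    have : ∀ i : ℕ, (shift ^ i • w).1 none = w.1 none := by
      intro i
      induction i with
      | zero => simp
      | succ i ih => rw [pow_succ', mul_smul, ← ih]; exact smul_apply' shift _ none
    simp only [s, Submodule.coe_sum, Finset.sum_apply, this, Finset.sum_const, Finset.card_range]
    generalize w.1 none = z; revert z; decide
  have e3 : shift • s = s := by
    simp only [s, Finset.smul_sum, ← mul_smul, ← pow_succ']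
    have a := Finset.sum_range_succ (fun i => shift ^ i • w) 23
    have b := Finset.sum_range_succ' (fun i => shift ^ i • w) 23
    rw [a, rel8, pow_zero] at b
    exact (add_right_cancel b).symm
  rw [← e1, ← e2]
  rcases fix_shift e3 with h | h <;> rw [h]
  · simp
  · exact h2

/-- inner automorphisms -/
def Inn (α : Co0 ≃* Co0) : Prop := ∃ g, ∀ x, α x = g * x * g⁻¹

theorem Inn.of_conj {α : Co0 ≃* Co0} (b : Co0) (h : Inn (α.trans (MulAut.conj b))) : Inn α := by
  obtain ⟨g, hg⟩ := h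
  refine ⟨b⁻¹ * g, fun x => ?_⟩
  have : b * α x * b⁻¹ = g * x * g⁻¹ := hg x
  calc α x = b⁻¹ * (b * α x * b⁻¹) * b := by group
    _ = _ := by rw [this]; group

theorem aut_neg (α : Co0 ≃* Co0) : α negElt = negElt := by
  have : α negElt ∈ Subgroup.center Co0 := by
    rw [Subgroup.mem_center_iff]
    intro g
    obtain ⟨x, rfl⟩ := α.surjective g
    rw [← map_mul, ← map_mul, negElt_comm]
  rcases mem_center_Co0.1 this with h | h
  · exact absurd (α.map_eq_one_iff.1 h) negElt_ne_one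
  · exact h

theorem aut_surj {α : Co0 ≃* Co0} (h : ∀ w, α (sg w) ∈ V0) (w : W) : ∃ v, α (sg v) = sg w := by
  choose a ha using h
  have : Function.Injective a := fun v w e => sg_injective (α.injective (by rw [← ha, ← ha, e]))
  obtain ⟨v, rfl⟩ := Finite.injective_iff_surjective.1 this w
  exact ⟨v, (ha v).symm⟩

theorem aut_N0 {α : Co0 ≃* Co0} (h : ∀ w, α (sg w) ∈ V0) {n : Co0} (hn : n ∈ N0) : α n ∈ N0 :=
  mem_N0_of_conj sep_univ fun w _ => by
    obtain ⟨v, hv⟩ := aut_surj h w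
    obtain ⟨d, σ, e⟩ := N0.inv_mem hn
    have := mono_conj_sg d σ v
    rw [← e, inv_inv] at this
    rw [← hv, ← map_inv, ← map_mul, ← map_mul, this]
    exact h _

theorem aut_N0' {α : Co0 ≃* Co0} (h : ∀ w, α (sg w) ∈ V0) {n : Co0} (hn : α n ∈ N0) : n ∈ N0 := by
  have := aut_N0 (α := α.symm) (fun w => by
    obtain ⟨v, hv⟩ := aut_surj h w
    rw [← hv, α.symm_apply_apply]; exact sg_mem v) hn
  simpa using this

theorem inn2 {α : Co0 ≃* Co0} (h : ∀ w, α (sg w) ∈ V0) {ξ : M24} (hξ : ξ.1 none = none)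
    (hx : α (permElt shift) = permElt ξ) : Inn α := by
  have h' := h
  choose a ha using h
  have hadd : ∀ v w, a (v + w) = a v + a w := fun v w => sg_injective (by
    rw [sg_add, ha, ha, ha, sg_add, map_mul])
  have hact : ∀ {n : Co0} {d : W} {τ σ : M24}, n = sg d * permElt τ → α n = permElt σ →
      ∀ w, a (τ • w) = σ • a w := by
    intro n d τ σ e1 e2 w
    apply sg_injective
    rw [ha, ← mono_conj_sg d, ← e1, map_mul, map_mul, map_inv, e2, ← ha, perm_conj_sg]
  have h0 : ∀ w, (a w).1 none = w.1 none := by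
    refine functional (AddMonoidHom.mk' (fun w => (a w).1 none) fun v w => by rw [hadd]; rfl) ?_ ?_
    · intro w
      show (a (shift • w)).1 none = (a w).1 none
      rw [hact (d := 0) (by rw [sg_zero, one_mul]) hx]
      conv_lhs => rw [← hξ]
      exact smul_apply' _ _ _
    · show (a all1).1 none = 1
      have : a all1 = all1 := sg_injective (by rw [ha, sg_all1, aut_neg])
      rw [this]; rfl
  have h1 : ∀ i, ∃ j, ∀ w, (a w).1 i = w.1 j := by
    intro i
    obtain ⟨σ, hσ⟩ := exists_M24_one i none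
    obtain ⟨d, τ, e⟩ := aut_N0' h' (n := α.symm (permElt σ))
      (by rw [α.apply_symm_apply]; exact perm_mem_N0 σ)
    refine ⟨τ.1⁻¹ none, fun w => ?_⟩
    rw [← smul_apply, ← h0, hact e (α.apply_symm_apply _), ← hσ, smul_apply']
  choose π hπ using h1
  have hinj : Function.Injective π := by
    intro i j hij
    by_contra hne
    obtain ⟨w, hw⟩ := sepW hne
    obtain ⟨v, hv⟩ := aut_surj h' w
    rw [← ha] at hv
    rw [← sg_injective hv, hπ, hπ, hij] at hw
    exact hw rfl
  let σ : Equiv.Perm GolayPt := Equiv.ofBijective π (Finite.injective_iff_bijective.1 hinj)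
  have hσ : σ ∈ M24 := mem_M24_iff_comp.2 fun w hw => by
    have : (fun p => w (σ p)) = (a ⟨w, hw⟩).1 := funext fun p => (hπ p ⟨w, hw⟩).symm
    rw [this]; exact (a ⟨w, hw⟩).2
  refine Inn.of_conj (permElt ⟨σ, hσ⟩) ⟨1, fun x => ?_⟩
  rw [one_mul, inv_one, mul_one]
  refine eq_of_fix_N0 _ (fix_N0 (ξ := ⟨σ, hσ⟩ * ξ * ⟨σ, hσ⟩⁻¹) (fun w => ?_) ?_) x
  · show permElt _ * α (sg w) * _ = _
    rw [← ha, perm_conj_sg]
    congr 1
    refine W_ext fun p => ?_
    obtain ⟨q, rfl⟩ := σ.surjective p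
    exact (smul_apply' ⟨σ, hσ⟩ _ q).trans (hπ q w)
  · show permElt _ * α _ * _ = _
    rw [hx, perm_mul, perm_mul, perm_inv]

theorem inn1 {α : Co0 ≃* Co0} (h : ∀ w, α (sg w) ∈ V0) : Inn α := by
  have : Fact (Nat.Prime 23) := ⟨by norm_num⟩
  obtain ⟨g, k, e⟩ := exists_conj_pow (G := N0) (p := 23) (by rw [card_N0]; norm_num)
    (a := ⟨_, aut_N0 h (perm_mem_N0 shift)⟩) (b := ⟨_, perm_mem_N0 shift⟩)
    (by rw [← Subgroup.orderOf_coe, MulEquiv.orderOf_eq, order_shift])
    (by rw [← Subgroup.orderOf_coe, order_shift])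
  refine Inn.of_conj g.1 (inn2 (ξ := shift ^ k) (fun w => ?_) ?_ ?_)
  · obtain ⟨v, hv⟩ := h w
    obtain ⟨d, σ, e⟩ := g.2
    show g.1 * α (sg w) * g.1⁻¹ ∈ V0
    rw [← hv, e, mono_conj_sg]; exact sg_mem _
  · exact (stabilizer M24 (none : GolayPt)).pow_mem (x := shift) rfl k
  · rw [perm_pow]; exact congrArg Subtype.val e

/-- Every automorphism of the Conway group is inner. -/
theorem aut_inner (α : Co0 ≃* Co0) : ∃ g, ∀ x, α x = g * x * g⁻¹ := by
  have hsq : ∀ e ∈ V0.map α.toMonoidHom, e * e = 1 := by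
    rintro _ ⟨_, ⟨w, rfl⟩, rfl⟩
    rw [← map_mul, sg_mul_self, map_one]
  obtain ⟨b, hb⟩ := exists_conj_le_N0 (isPGroup_of_sq hsq)
  refine Inn.of_conj b (inn1 fun w => ?_)
  refine eq_V0 (E := V0.map (α.trans (MulAut.conj b)).toMonoidHom) ?_ ?_ ?_ ⟨_, sg_mem w, rfl⟩
  · rintro _ ⟨_, ⟨w, rfl⟩, rfl⟩
    rw [← map_mul, sg_mul_self, map_one]
  · rintro _ ⟨x, hx, rfl⟩
    exact hb _ ⟨x, hx, rfl⟩
  · rw [Subgroup.card_map_of_injective (MulEquiv.injective _), card_V0]

end C0
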