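import Cfsg.Agent.H3.ZCor

/-! An isolation criterion from an elementary abelian subgroup without offenders. -/

set_option autoImplicit false

namespace C0
open Cfsg Subgroup H4

variable {G : Type*} [Group G] [Finite G]

omit [Finite G] in
theorem comm_sq {E : Subgroup G} (hE : ∀ e ∈ E, e * e = 1) {a b : G}
    (ha : a ∈ E) (hb : b ∈ E) : a * b = b * a := by
  have h1 := hE _ (E.mul_mem ha hb)
  have h2 := inv_eq_of_mul_eq_one_right (hE a ha)
  have h3 := inv_eq_of_mul_eq_one_right (hE b hb)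
  rw [← inv_eq_of_mul_eq_one_right h1, mul_inv_rev, h2, h3]

omit [Finite G] in
theorem pg_sq {E : Subgroup G} (hE : ∀ e ∈ E, e * e = 1) : IsPGroup 2 E :=
  fun e => ⟨1, Subtype.ext (by simpa [pow_two] using hE e e.2)⟩

omit [Finite G] in
theorem sq_conjS {E : Subgroup G} (hE : ∀ e ∈ E, e * e = 1) (g : G) :
    ∀ e ∈ conjS g E, e * e = 1 := by
  intro e he
  have := hE _ (mem_conjS.1 he)
  calc e * e = g * (g⁻¹ * e * g * (g⁻¹ * e * g)) * g⁻¹ := by group
    _ = 1 := by rw [this]; group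

/-- no offenders -/
def NoOff (V : Subgroup G) : Prop :=
  ∀ E : Subgroup G, (∀ e ∈ E, e * e = 1) → E ≤ normalizer (V : Set G) →
    Nat.card V * Nat.card ↥(E ⊓ V) ≤ Nat.card E * Nat.card ↥(V ⊓ centralizer (E : Set G)) → E ≤ V

/-- the hypotheses on a pair -/
structure Good (V : Subgroup G) (t : G) : Prop where
  mem : t ∈ V
  sq : ∀ v ∈ V, v * v = 1
  wc : ∀ g : G, g * t * g⁻¹ ∈ V → g * t * g⁻¹ = t
  off : NoOff V

omit [Finite G] in
theorem Good.conj {V : Subgroup G} {t : G} (h : Good V t) (g : G) :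
    Good (conjS g V) (g * t * g⁻¹) := by
  refine ⟨conj_mem_conjS h.mem, sq_conjS h.sq g, fun x hx => ?_, fun E h1 h2 h3 => ?_⟩
  · have := h.wc (g⁻¹ * x * g) (by
      have := mem_conjS.1 hx
      convert this using 1; group)
    calc x * (g * t * g⁻¹) * x⁻¹ = g * (g⁻¹ * x * g * t * (g⁻¹ * x * g)⁻¹) * g⁻¹ := by group
      _ = _ := by rw [this]
  · have := h.off (conjS g⁻¹ E) (sq_conjS h1 _) (by
      rw [← conjS_le_conjS_iff g, conjS_conjS_inv, conjS_normalizer]; exact h2) (by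
      rw [← card_conjS g V, ← card_conjS g (_ ⊓ V), ← card_conjS g (conjS g⁻¹ E),
        ← card_conjS g (V ⊓ _), conjS_inf, conjS_inf, conjS_centralizer, conjS_conjS_inv]
      exact h3)
    rwa [← conjS_le_conjS_iff g, conjS_conjS_inv] at this

theorem card_mul_le {B I X : Subgroup G} (hB : B ≤ X) (hI : I ≤ X) (h : ∀ x ∈ B, x ∈ I → x = 1) :
    Nat.card B * Nat.card I ≤ Nat.card X := by
  rw [← Nat.card_prod]
  refine Nat.card_le_card_of_injective
    (fun x : B × I => (⟨x.1 * x.2, X.mul_mem (hB x.1.2) (hI x.2.2)⟩ : X)) ?_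
  rintro ⟨b, i⟩ ⟨b', i'⟩ e
  have e1 : (b : G) * i = b' * i' := congrArg Subtype.val e
  have e2 : (b' : G)⁻¹ * b = i' * (i : G)⁻¹ := by
    rw [inv_mul_eq_iff_eq_mul, ← mul_assoc, eq_mul_inv_iff_mul_eq, e1]
  have e3 := h _ (B.mul_mem (B.inv_mem b'.2) b.2) (e2 ▸ I.mul_mem i'.2 (I.inv_mem i.2))
  have e4 : b = b' := Subtype.ext (inv_mul_eq_one.1 e3).symm
  subst e4
  exact Prod.ext rfl (Subtype.ext (mul_left_cancel e1))

theorem Good.pair {V W : Subgroup G} {t u g : G} (hV : Good V t) (hW : Good W u)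
    (hg : g * t * g⁻¹ = u) (hne : u ≠ t) (hc : t * u = u * t)
    (h1 : V ⊓ centralizer {u} ≤ normalizer (W : Set G))
    (h2 : W ⊓ centralizer {t} ≤ normalizer (V : Set G))
    (h3 : Nat.card ↥(V ⊓ centralizer {u}) ≤ Nat.card ↥(W ⊓ centralizer {t})) : False := by
  have hu1 : u ∈ W ⊓ centralizer {t} := ⟨hW.mem, mem_centralizer_singleton_iff.2 hc.symm⟩
  have hn : ∀ w ∈ W ⊓ centralizer {t}, ∀ v ∈ V, w * v * w⁻¹ ∈ V := fun w hw v hv =>
    (mem_normalizer_iff.1 (h2 hw) v).1 hv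
  have uu := hW.sq u hW.mem
  have ui : u⁻¹ = u := inv_eq_of_mul_eq_one_right uu
  let ψ : V →* G := MonoidHom.mk' (fun v => v * (u * v * u⁻¹)) fun a b => by
    have := comm_sq hV.sq b.2 (hn u hu1 a a.2)
    rw [coe_mul]
    calc (a : G) * b * (u * (a * b) * u⁻¹) = a * (b * (u * a * u⁻¹)) * (u * b * u⁻¹) := by group
      _ = _ := by rw [this]; group
  have hψ : ∀ v : V, ψ v = v * (u * v * u⁻¹) := fun _ => rfl
  have hker : ψ.ker = (centralizer {u}).subgroupOf V := by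
    ext v
    rw [MonoidHom.mem_ker, mem_subgroupOf, mem_centralizer_singleton_iff, hψ, mul_eq_one_iff_inv_eq,
      inv_eq_of_mul_eq_one_right (hV.sq v v.2), eq_mul_inv_iff_mul_eq]
  have hBV : ψ.range ≤ V := by
    rintro _ ⟨v, rfl⟩
    exact V.mul_mem v.2 (hn u hu1 v v.2)
  have hBW : ∀ x ∈ ψ.range, x ∈ W → x = 1 := by
    rintro _ ⟨v, rfl⟩ hx
    have vi : (v : G)⁻¹ = v := inv_eq_of_mul_eq_one_right (hV.sq v v.2)
    have e : (v : G) * u * (v : G)⁻¹ = ψ v * u := by rw [hψ, vi]; group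
    have := hW.wc v (e ▸ W.mul_mem hx hW.mem)
    rw [e] at this
    exact mul_eq_right.1 this
  have hBu : ∀ x ∈ ψ.range, x * u = u * x := by
    rintro _ ⟨v, rfl⟩
    have := comm_sq hV.sq v.2 (hn u hu1 v v.2)
    conv_rhs => rw [hψ, ← mul_assoc]
    rw [hψ, this, ui]
    calc u * v * u * v * u = u * v * (u * v * u) := by group
      _ = _ := rfl
  have hBc : ψ.range ≤ V ⊓ centralizer ((W ⊓ centralizer {t} : Subgroup G) : Set G) := by
    intro x hx
    refine ⟨hBV hx, fun w hw => ?_⟩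
    have a1 : w * x * w⁻¹ ∈ ψ.range := by
      obtain ⟨v, rfl⟩ := hx
      refine ⟨⟨_, hn w hw v v.2⟩, ?_⟩
      have := comm_sq hW.sq hw.1 hW.mem
      rw [hψ, hψ]
      calc w * v * w⁻¹ * (u * (w * v * w⁻¹) * u⁻¹) = w * v * w⁻¹ * (u * w) * v * (u * w)⁻¹ := by
            group
        _ = _ := by rw [← this]; group
    have a2 : x⁻¹ ∈ normalizer (W : Set G) :=
      inv_mem (h1 ⟨hBV hx, mem_centralizer_singleton_iff.2 (hBu x hx)⟩)
    have a3 := hBW (x⁻¹ * (w * x * w⁻¹)) (mul_mem (inv_mem hx) a1) (by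
      have := W.mul_mem ((mem_normalizer_iff.1 a2 w).1 hw.1) (W.inv_mem hw.1)
      convert this using 1; group)
    rw [inv_mul_eq_one, eq_mul_inv_iff_mul_eq] at a3
    exact a3.symm
  have hI : W ⊓ centralizer {t} ⊓ V ≤
      V ⊓ centralizer ((W ⊓ centralizer {t} : Subgroup G) : Set G) :=
    fun x hx => ⟨hx.2, fun w hw => comm_sq hW.sq hw.1 hx.1.1⟩
  have c1 := card_mul_le hBc hI fun x hx hx' => hBW x hx hx'.1.1
  have c2 : Nat.card V = Nat.card ↥(V ⊓ centralizer {u}) * Nat.card ψ.range := by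
    rw [← Subgroup.index_ker, ← ψ.ker.card_mul_index, hker]
    congr 1
    rw [← Subgroup.inf_subgroupOf_left]
    exact Nat.card_congr (Subgroup.subgroupOfEquivOfLe inf_le_left).toEquiv
  have := hV.off (W ⊓ centralizer {t}) (fun e he => hW.sq e he.1) h2 (by
    rw [c2, mul_assoc]; exact Nat.mul_le_mul h3 c1)
  have h4 := hV.wc g (hg ▸ this hu1)
  exact hne (hg ▸ h4)

theorem isolated_of {V : Subgroup G} {t : G} (htV : t ∈ V) (hV : ∀ v ∈ V, v * v = 1)
    (hd : NoOff V)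
    (he : ∀ Y : Subgroup G, IsPGroup 2 Y → Y ≤ centralizer {t} →
      ∃ h ∈ centralizer ({t} : Set G), conjS h Y ≤ normalizer (V : Set G))
    (hE : normalizer (V : Set G) ≤ centralizer {t}) : IsIsolated t := by
  have hG : Good V t := by
    refine ⟨htV, hV, fun g hg => ?_, hd⟩
    obtain ⟨h, hh, e⟩ := he (conjS g⁻¹ V) (pg_sq (sq_conjS hV _)) fun y hy => by
      have := comm_sq hV (mem_conjS.1 hy) hg
      rw [mem_centralizer_singleton_iff]
      calc y * t = g⁻¹ * (g⁻¹⁻¹ * y * g⁻¹ * (g * t * g⁻¹)) * g := by group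
        _ = _ := by rw [this]; group
    rw [conjS_conjS] at e
    have h1 := hd _ (sq_conjS hV _) e (by
      rw [card_conjS]
      refine Nat.mul_le_mul_left _ (card_le_of_le fun x hx => ⟨hx.2, fun y hy => ?_⟩)
      exact comm_sq (sq_conjS hV _) hy hx.1)
    have h2 := mem_centralizer_singleton_iff.1 (hE (mem_normalizer_of_conjS_le h1))
    have h3 := mem_centralizer_singleton_iff.1 hh
    calc g * t * g⁻¹ = g * h⁻¹ * (h * t) * g⁻¹ := by group
      _ = g * h⁻¹ * (t * (h * g⁻¹)) := by rw [h3]; group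
      _ = t := by rw [← h2]; group
  intro g hg
  by_contra hne
  obtain ⟨Y, hY⟩ := H5.exists_isSylowOf (q := 2) (centralizer {t} ⊓ centralizer {g * t * g⁻¹})
  obtain ⟨h, hh, e⟩ := he Y hY.isPGroup (hY.le.trans inf_le_left)
  obtain ⟨h', hh', e'⟩ := he (conjS g⁻¹ Y) (hY.isPGroup.map _) (by
    rw [← conjS_le_conjS_iff g, conjS_conjS_inv, conjS_centralizer_singleton]
    exact hY.le.trans inf_le_right)
  have a1 : h⁻¹ * t * h⁻¹⁻¹ = t := by
    rw [inv_inv, mul_assoc, ← mem_centralizer_singleton_iff.1 hh, inv_mul_cancel_left]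
  have a2 : g * h'⁻¹ * t * (g * h'⁻¹)⁻¹ = g * t * g⁻¹ := by
    calc g * h'⁻¹ * t * (g * h'⁻¹)⁻¹ = g * h'⁻¹ * (t * h') * g⁻¹ := by group
      _ = _ := by rw [← mem_centralizer_singleton_iff.1 hh']; group
  have G1 := hG.conj h⁻¹
  have G2 := hG.conj (g * h'⁻¹)
  rw [a1] at G1
  rw [a2] at G2
  have n1 : Y ≤ normalizer (conjS h⁻¹ V : Set G) := by
    rw [← conjS_normalizer, ← conjS_le_conjS_iff h, conjS_conjS_inv]; exact e
  have n2 : Y ≤ normalizer (conjS (g * h'⁻¹) V : Set G) := by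
    rw [← conjS_normalizer, ← conjS_le_conjS_iff (g * h'⁻¹)⁻¹, conjS_inv_conjS, mul_inv_rev,
      inv_inv, ← conjS_conjS]
    exact e'
  have key : ∀ {X : Subgroup G} {a b : G}, Good X a → Y ≤ normalizer (X : Set G) →
      Y ≤ centralizer {b} → centralizer {a} ⊓ centralizer {b} ≤
        centralizer {t} ⊓ centralizer {g * t * g⁻¹} → X ⊓ centralizer {b} ≤ Y := by
    intro X a b hX k1 k2 k3
    refine hY.le_of_le_normalizer (pg_sq fun e he => hX.sq e he.1) (fun x hx => k3 ⟨?_, hx.2⟩) ?_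
    · exact mem_centralizer_singleton_iff.2 (comm_sq hX.sq hx.1 hX.mem)
    · intro y hy
      refine mem_normalizer_fintype fun x hx => ⟨(mem_normalizer_iff.1 (k1 hy) x).1 hx.1, ?_⟩
      exact (centralizer {b}).mul_mem ((centralizer {b}).mul_mem (k2 hy) hx.2)
        ((centralizer {b}).inv_mem (k2 hy))
  have k1 := (key G1 n1 (hY.le.trans inf_le_right) le_rfl).trans n2
  have k2 := (key G2 n2 (hY.le.trans inf_le_left) (inf_comm _ _).le).trans n1
  rcases le_total (Nat.card ↥(conjS h⁻¹ V ⊓ centralizer {g * t * g⁻¹}))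
    (Nat.card ↥(conjS (g * h'⁻¹) V ⊓ centralizer {t})) with c | c
  · exact G1.pair G2 rfl hne hg.eq k1 k2 c
  · exact G2.pair G1 (g := g⁻¹) (by group) (Ne.symm hne) hg.eq.symm k2 k1 c

end C0
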