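import Cfsg.Agent.C0.D
import Cfsg.Agent.S0382

/-! A linear group on the code in which the stabiliser of the all-ones word acts as `M24` fixes
that word. -/

set_option autoImplicit false

namespace C0
open Cfsg H3 MulAction H2
open scoped Pointwise

theorem supp_smul' (σ : M24) (w : W) : supp (σ • w) = σ.1 • supp w := supp_smul σ w

theorem supp_wd (m : ℕ) : supp (wd m) = fs (enc m) := support_word _

theorem rep_smul_wd {σ : M24} {c : ℕ} (h : Rep σ.1 c) {m n : ℕ} (e : imgC c (enc m) = enc n) :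
    σ • wd m = wd n := supp_inj (by rw [supp_smul', supp_wd, supp_wd, h.smul_fs, e])

theorem wd_add (m n : ℕ) : wd m + wd n = wd (m ^^^ n) :=
  Subtype.ext (by simp only [wd, enc_xor, word_xor]; rfl)

theorem trans_of_card {v w : W} (h : (supp v).card = (supp w).card) : ∃ σ : M24, σ • v = w := by
  have h8 : ∀ {v w : W}, (supp v).card = 8 → (supp w).card = 8 → ∃ σ : M24, σ • v = w := by
    intro v w h1 h2
    obtain ⟨g, hg, e⟩ := M24_octad_trans (H3.mem_octads.2 ⟨supp_mem v, h1⟩)
      (H3.mem_octads.2 ⟨supp_mem w, h2⟩)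
    exact ⟨⟨g, hg⟩, supp_inj (by rw [supp_smul', e])⟩
  rcases GC_card (supp_mem v) with e | e | e | e | e
  · exact ⟨1, by rw [eq_zero_of_card (w := v) (by omega), eq_zero_of_card (w := w) (by omega),
      one_smul]⟩
  · exact h8 e (by omega)
  · obtain ⟨g, hg, e⟩ := M24_dodecad_trans (H3.mem_dodecads.2 ⟨supp_mem v, e⟩)
      (H3.mem_dodecads.2 ⟨supp_mem w, by omega⟩)
    exact ⟨⟨g, hg⟩, supp_inj (by rw [supp_smul', e])⟩
  · obtain ⟨σ, hσ⟩ := h8 (v := v + all1) (w := w + all1)
      (by rw [supp_add_all1, Finset.card_compl, card_golayPt, e])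
      (by rw [supp_add_all1, Finset.card_compl, card_golayPt, ← h, e])
    rw [smul_add, smul_all1] at hσ
    exact ⟨σ, add_right_cancel hσ⟩
  · exact ⟨1, by rw [eq_all1_of_card (w := v) (by omega), eq_all1_of_card (w := w) (by omega),
      one_smul]⟩

/-- words of a given weight -/
def Wt (k : ℕ) : Set W := {w | (supp w).card = k}

theorem ncard_Wt (k : ℕ) : (Wt k).ncard = {c | c ∈ GC ∧ c.card = k}.ncard := by
  rw [← Set.ncard_image_of_injective (Wt k) (f := supp) fun _ _ => supp_inj]
  congr 1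
  ext c
  constructor
  · rintro ⟨w, hw, rfl⟩; exact ⟨supp_mem w, hw⟩
  · rintro ⟨h1, h2⟩
    obtain ⟨w, rfl⟩ := exists_supp h1
    exact ⟨w, h2, rfl⟩

theorem ncard_Wt8 : (Wt 8).ncard = 759 := by
  rw [ncard_Wt, ← ncard_octads]; congr 1

theorem ncard_Wt12 : (Wt 12).ncard = 2576 := by
  rw [ncard_Wt, ← ncard_dodecads]; congr 1

theorem card_supp_all1 : (supp all1).card = 24 := by rw [supp_all1, Finset.card_univ, card_golayPt]

theorem ncard_Wt24 : (Wt 24).ncard = 1 := by
  rw [Set.ncard_eq_one]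
  refine ⟨all1, Set.eq_singleton_iff_unique_mem.2 ⟨card_supp_all1, fun w hw => ?_⟩⟩
  have : (supp w).card = 24 := hw
  exact eq_all1_of_card (by omega)

theorem disj_Wt {j k : ℕ} (h : j ≠ k) : Disjoint (Wt j) (Wt k) :=
  Set.disjoint_left.2 fun _ h1 h2 => h (h1.symm.trans h2)

section
variable {R : Subgroup (Equiv.Perm W)} (h0 : ∀ r ∈ R, ∀ v w, r (v + w) = r v + r w)
include h0

theorem not_dvd_orbit {p : ℕ} (hp : p.Prime) (h : ∀ j < 12, ¬ 2 ^ 12 ≡ 2 ^ j [MOD p]) (w : W) :
    ¬ p ∣ (orbit R w).ncard := by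
  have := Fact.mk hp
  intro hd
  obtain ⟨P⟩ : Nonempty (Sylow p R) := inferInstance
  let F : AddSubgroup W :=
    { carrier := fixedPoints P W
      zero_mem' := fun g => by
        have := h0 _ g.1.2 0 0
        rw [add_zero] at this
        exact left_eq_add.1 this
      add_mem' := fun {a b} ha hb g => by
        have e1 : g.1.1 a = a := ha g
        have e2 : g.1.1 b = b := hb g
        have := h0 _ g.1.2 a b
        rwa [e1, e2] at this
      neg_mem' := fun {a} ha => by
        rwa [neg_eq_of_add_eq_zero_right (W_add_self a)] }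
  have h1 := P.isPGroup'.card_modEq_card_fixedPoints W
  have h2 : Nat.card F ∣ 2 ^ 12 := by
    have := AddSubgroup.card_addSubgroup_dvd_card F
    rwa [card_W] at this
  obtain ⟨j, hj, e⟩ := (Nat.dvd_prime_pow Nat.prime_two).1 h2
  have e' : Nat.card (fixedPoints P W) = 2 ^ j := e
  rw [e', card_W] at h1
  have hj12 : j = 12 := by
    by_contra hc
    exact h j (by omega) h1
  have hF : F = ⊤ := AddSubgroup.eq_top_of_card_eq F (by rw [e, hj12, card_W]; norm_num)
  have hle : (P : Subgroup R) ≤ stabilizer R w := fun g hg =>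
    (hF ▸ AddSubgroup.mem_top w : w ∈ F) ⟨g, hg⟩
  rw [← index_stabilizer] at hd
  exact P.not_dvd_index (hd.trans (Subgroup.index_dvd_of_le hle))

theorem no_sixteen (h1 : ∀ σ : M24, ∃ r ∈ R, ∀ w, r w = σ • w)
    (h2 : ∀ r ∈ R, r all1 = all1 → ∃ σ : M24, ∀ w, r w = σ • w) {r : Equiv.Perm W} (hr : r ∈ R) :
    r (wd 1270) ≠ all1 := by
  intro e
  obtain ⟨s, hs⟩ := exists_M24 (c := 957316225099133873385554888546685171) (by decide +kernel)
  obtain ⟨x, hx⟩ := exists_M24 (c := 228624611548872584610227545208894121) (by decide +kernel)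
  have s1 : s • wd 246 = wd 246 := rep_smul_wd hs (by decide +kernel)
  have s2 : s • wd 1270 = wd 1270 := rep_smul_wd hs (by decide +kernel)
  have x1 : x • wd 246 = wd 246 + wd 1270 := by
    rw [wd_add]; exact rep_smul_wd hx (by decide +kernel)
  have x2 : x • wd 1270 = wd 1270 := rep_smul_wd hx (by decide +kernel)
  have s7 : s ^ 7 = 1 := Subtype.ext (Rep.eq_one (by
    have := hs.pow 7
    rwa [show powC 957316225099133873385554888546685171 7 = oneC by decide +kernel] at this))
  have s0 : s ≠ 1 := by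
    rintro rfl
    have := hs.apply_pt (i := 0) (by norm_num)
    revert this; decide +kernel
  have tr : ∀ σ : M24, σ • wd 1270 = wd 1270 → ∃ τ : M24, ∀ w, τ • r w = r (σ • w) := by
    intro σ hσ
    obtain ⟨q, hq, eq⟩ := h1 σ
    obtain ⟨τ, hτ⟩ := h2 (r * q * r⁻¹) (R.mul_mem (R.mul_mem hr hq) (R.inv_mem hr)) (by
      have : r⁻¹ all1 = wd 1270 := by rw [← e]; simp
      rw [Equiv.Perm.mul_apply, Equiv.Perm.mul_apply, this, eq, hσ, e])
    exact ⟨τ, fun w => by rw [← hτ]; simp [eq]⟩
  obtain ⟨x', hx'⟩ := tr x x2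
  obtain ⟨s', hs'⟩ := tr s s2
  have c1 := card_supp_smul x' (r (wd 246))
  rw [hx', x1, h0 r hr, e, supp_add_all1, Finset.card_compl, card_golayPt] at c1
  have c2 : (supp (r (wd 246))).card = 12 := by omega
  have c3 := Cfsg.Agent.S0382.result _ (H3.mem_dodecads.2 ⟨supp_mem _, c2⟩)
  have hp : ∀ (k : ℕ) w, s' ^ k • r w = r (s ^ k • w) := by
    intro k
    induction k with
    | zero => simp
    | succ k ih => intro w; rw [pow_succ, pow_succ, mul_smul, mul_smul, hs', ih]
  have c4 : orderOf s' = 7 := by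
    have := Fact.mk (show Nat.Prime 7 by norm_num)
    refine orderOf_eq_prime (eq_one_of_smul fun w => ?_) ?_
    · obtain ⟨v, rfl⟩ := r.surjective w
      rw [hp, s7, one_smul]
    · rintro rfl
      exact s0 (eq_one_of_smul fun w => r.injective (by rw [← hs', one_smul]))
  have c5 : s' ∈ stabilizer M24 (supp (r (wd 246))) := by
    rw [mem_stabilizer_iff]
    refine Eq.trans ?_ (show supp (s' • r (wd 246)) = _ by rw [hs', s1])
    rw [supp_smul]; rfl
  have := Subgroup.orderOf_dvd_natCard _ c5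
  rw [c3, c4] at this
  norm_num at this

theorem fix_all1 (h1 : ∀ σ : M24, ∃ r ∈ R, ∀ w, r w = σ • w)
    (h2 : ∀ r ∈ R, r all1 = all1 → ∃ σ : M24, ∀ w, r w = σ • w) {r : Equiv.Perm W} (hr : r ∈ R) :
    r all1 = all1 := by
  have hO : ∀ v ∈ orbit R all1, Wt (supp v).card ⊆ orbit R all1 := by
    rintro _ ⟨q, rfl⟩ w hw
    obtain ⟨σ, hσ⟩ := trans_of_card (show (supp w).card = _ from hw).symm
    obtain ⟨q', hq', e⟩ := h1 σ
    exact ⟨⟨q', hq'⟩ * q, by rw [← hσ, ← e]; rfl⟩
  have hW : ∀ v ∈ orbit R all1, v ∈ Wt 24 ∨ v ∈ Wt 8 ∨ v ∈ Wt 12 := by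
    intro v hv
    rcases GC_card (supp_mem v) with e | e | e | e | e
    · exfalso
      obtain ⟨q, rfl⟩ := hv
      have a := eq_zero_of_card (w := q.1 all1) (by have : (supp (q.1 all1)).card = 0 := e; omega)
      have b := h0 _ q.2 0 0
      rw [add_zero] at b
      have c := q.1.injective (a.trans (left_eq_add.1 b).symm)
      have := card_supp_all1
      rw [c, supp_zero] at this
      simp at this
    · exact Or.inr (Or.inl e)
    · exact Or.inr (Or.inr e)
    · exfalso
      have : wd 1270 ∈ orbit R all1 := hO v hv (by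
        rw [e]; show (supp _).card = 16
        rw [supp_wd, card_fs]; decide +kernel)
      obtain ⟨q, hq⟩ := this
      refine no_sixteen h0 h1 h2 (R.inv_mem q.2) ?_
      rw [← hq]
      exact q.1.symm_apply_apply _
    · exact Or.inl e
  have h24 : Wt 24 ⊆ orbit R all1 := card_supp_all1 ▸ hO _ (mem_orbit_self _)
  have h8 : Wt 8 ⊆ orbit R all1 ∨ ∀ v ∈ orbit R all1, v ∉ Wt 8 := by
    by_cases h : ∃ v ∈ orbit R all1, v ∈ Wt 8
    · obtain ⟨v, hv, e⟩ := h
      have e' : (supp v).card = 8 := e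
      exact Or.inl (e' ▸ hO v hv)
    · push Not at h; exact Or.inr h
  have h12 : Wt 12 ⊆ orbit R all1 ∨ ∀ v ∈ orbit R all1, v ∉ Wt 12 := by
    by_cases h : ∃ v ∈ orbit R all1, v ∈ Wt 12
    · obtain ⟨v, hv, e⟩ := h
      have e' : (supp v).card = 12 := e
      exact Or.inl (e' ▸ hO v hv)
    · push Not at h; exact Or.inr h
  rcases h8 with h8 | h8 <;> rcases h12 with h12 | h12
  · exfalso
    have : orbit R all1 = Wt 24 ∪ (Wt 8 ∪ Wt 12) :=
      Set.Subset.antisymm hW (Set.union_subset h24 (Set.union_subset h8 h12))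
    refine not_dvd_orbit h0 (p := 139) (by norm_num) (by decide) all1 ?_
    rw [this, Set.ncard_union_eq (Set.disjoint_union_right.2 ⟨disj_Wt (by norm_num),
      disj_Wt (by norm_num)⟩), Set.ncard_union_eq (disj_Wt (by norm_num)), ncard_Wt24, ncard_Wt8,
      ncard_Wt12]
    norm_num
  · exfalso
    have : orbit R all1 = Wt 24 ∪ Wt 8 := Set.Subset.antisymm
      (fun v hv => by have := hW v hv; have := h12 v hv; simp only [Set.mem_union]; tauto)
      (Set.union_subset h24 h8)
    refine not_dvd_orbit h0 (p := 19) (by norm_num) (by decide) all1 ?_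
    rw [this, Set.ncard_union_eq (disj_Wt (by norm_num)), ncard_Wt24, ncard_Wt8]
    norm_num
  · exfalso
    have : orbit R all1 = Wt 24 ∪ Wt 12 := Set.Subset.antisymm
      (fun v hv => by have := hW v hv; have := h8 v hv; simp only [Set.mem_union]; tauto)
      (Set.union_subset h24 h12)
    refine not_dvd_orbit h0 (p := 859) (by norm_num) (by decide) all1 ?_
    rw [this, Set.ncard_union_eq (disj_Wt (by norm_num)), ncard_Wt24, ncard_Wt12]
    norm_num
  · have hv : r all1 ∈ orbit R all1 := ⟨⟨r, hr⟩, rfl⟩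
    have a := hW _ hv
    have b := h8 _ hv
    have c := h12 _ hv
    have d : (supp (r all1)).card = 24 := by tauto
    exact eq_all1_of_card (by omega)

end

end C0
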