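import Cfsg.Agent.C0.E
import Cfsg.Agent.C0.F

/-! The central involution of a standard subgroup isomorphic to the Conway group is isolated. -/

set_option autoImplicit false

namespace C0
open Cfsg H3 H4 Subgroup

variable {G : Type*} [Group G] [Finite G] {φ : Co0 →* G} (hφ : Function.Injective φ)
include hφ

theorem isolated_neg
    (hH : ∀ h ∈ centralizer ({φ negElt} : Set G), ∃ a, ∀ x, h * φ x * h⁻¹ = φ (a * x * a⁻¹))
    (hK : ∀ k : G, k * k = 1 → (∀ x, k * φ x = φ x * k) → k = 1 ∨ k = φ negElt) :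
    IsIsolated (φ negElt) := by
  have mV : ∀ w, φ (sg w) ∈ V0.map φ := fun w => ⟨_, sg_mem w, rfl⟩
  have htV : φ negElt ∈ V0.map φ := sg_all1 ▸ mV all1
  have hsq : ∀ v ∈ V0.map φ, v * v = 1 := by
    rintro _ ⟨_, ⟨w, rfl⟩, rfl⟩
    rw [← map_mul, sg_mul_self, map_one]
  have hc : ∀ c : G, c * c = 1 → (∀ w, c * φ (sg w) = φ (sg w) * c) → c ∈ V0.map φ := by
    intro c h1 h2
    obtain ⟨a, ha⟩ := hH c (mem_centralizer_singleton_iff.2 (sg_all1 ▸ h2 all1))
    obtain ⟨d, rfl⟩ := mem_V0_of_comm sep_univ (g := a) fun w _ => by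
      have := ha (sg w)
      rw [h2, mul_inv_cancel_right] at this
      exact mul_inv_eq_iff_eq_mul.1 (hφ this).symm
    have e : c = φ (sg d) * (φ (sg d) * c) := by
      rw [← mul_assoc, hsq _ (mV d), one_mul]
    rcases hK (φ (sg d) * c) (by
      rw [mul_assoc, ← mul_assoc c, h2, mul_assoc, h1, mul_one, hsq _ (mV d)]) (fun x => by
      have := ha x
      rw [sg_inv, map_mul, map_mul, mul_inv_eq_iff_eq_mul] at this
      rw [mul_assoc, this, ← mul_assoc, ← mul_assoc, ← mul_assoc, hsq _ (mV d), one_mul, mul_assoc])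
      with h | h <;> rw [e, h]
    · rw [mul_one]; exact mV d
    · exact mul_mem (mV d) htV
  have hact : ∀ h ∈ centralizer ({φ negElt} : Set G), h ∈ normalizer (V0.map φ : Set G) →
      ∃ σ : M24, ∀ w, h * φ (sg w) * h⁻¹ = φ (sg (σ • w)) := by
    intro h h1 h2
    obtain ⟨a, ha⟩ := hH h h1
    have : a⁻¹ ∈ N0 := mem_N0_of_conj sep_univ fun w _ => by
      obtain ⟨x, hx, e⟩ := (mem_normalizer_iff.1 h2 _).1 (mV w)
      rw [ha] at e
      rw [inv_inv, ← hφ e]; exact hx
    obtain ⟨d, σ, rfl⟩ := (inv_mem_iff (x := a)).1 this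
    exact ⟨σ, fun w => by rw [ha, mono_conj_sg]⟩
  have hE : normalizer (V0.map φ : Set G) ≤ centralizer {φ negElt} := by
    have ex : ∀ (m : normalizer (V0.map φ : Set G)) (w : W), ∃ v,
        φ (sg v) = m.1 * φ (sg w) * m.1⁻¹ := by
      intro m w
      obtain ⟨_, ⟨v, rfl⟩, e⟩ := (mem_normalizer_iff.1 m.2 _).1 (mV w)
      exact ⟨v, e⟩
    choose μ hμ using ex
    have inj : ∀ {v w : W}, φ (sg v) = φ (sg w) → v = w := fun e => sg_injective (hφ e)
    have μ1 : ∀ w, μ 1 w = w := fun w => inj (by rw [hμ]; simp)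
    have μm : ∀ a b w, μ (a * b) w = μ a (μ b w) := fun a b w => inj (by
      rw [hμ, hμ, hμ, coe_mul]; group)
    let ρ : normalizer (V0.map φ : Set G) →* Equiv.Perm W := MonoidHom.mk'
      (fun m => ⟨μ m, μ m⁻¹, fun w => by rw [← μm, inv_mul_cancel, μ1],
        fun w => by rw [← μm, mul_inv_cancel, μ1]⟩) fun a b => Equiv.ext (μm a b)
    have hρ : ∀ m w, ρ m w = μ m w := fun _ _ => rfl
    intro m hm
    have := fix_all1 (R := ρ.range) (by
      rintro _ ⟨m, rfl⟩ v w
      apply inj
      rw [hρ, hρ, hρ, sg_add, map_mul, hμ, hμ, hμ, sg_add, map_mul]; group) (fun σ => by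
      refine ⟨ρ ⟨φ (permElt σ), mem_normalizer_fintype ?_⟩, ⟨_, rfl⟩, fun w => inj ?_⟩
      · rintro _ ⟨_, ⟨w, rfl⟩, rfl⟩
        rw [← map_inv, ← map_mul, ← map_mul, perm_conj_sg]; exact mV _
      · rw [hρ, hμ]
        show φ (permElt σ) * φ (sg w) * (φ (permElt σ))⁻¹ = _
        rw [← map_inv, ← map_mul, ← map_mul, perm_conj_sg]) (by
      rintro _ ⟨m, rfl⟩ h
      have e := hμ m all1
      rw [← hρ, h, sg_all1, eq_mul_inv_iff_mul_eq] at e
      obtain ⟨σ, hσ⟩ := hact m (mem_centralizer_singleton_iff.2 e.symm) m.2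
      exact ⟨σ, fun w => inj (by rw [hρ, hμ, hσ])⟩) (r := ρ ⟨m, hm⟩) ⟨_, rfl⟩
    have e := hμ ⟨m, hm⟩ all1
    rw [← hρ, this, sg_all1, eq_mul_inv_iff_mul_eq] at e
    exact mem_centralizer_singleton_iff.2 e.symm
  refine isolated_of htV hsq (fun E h1 h2 h3 => ?_) (fun Y hY hYt => ?_) hE
  · refine le_of_offender hφ h1 (fun e he => hact e (hE (h2 he)) (h2 he))
      (fun e he => hc e (h1 e he)) ?_
    rwa [card_map_of_injective hφ, card_V0] at h3
  · let Y' : Subgroup Co0 :=
      { carrier := {a | ∃ y ∈ Y, ∀ x, y * φ x * y⁻¹ = φ (a * x * a⁻¹)}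
        one_mem' := ⟨1, Y.one_mem, fun x => by simp⟩
        mul_mem' := by
          rintro a b ⟨y, hy, e⟩ ⟨z, hz, f⟩
          refine ⟨y * z, Y.mul_mem hy hz, fun x => ?_⟩
          calc y * z * φ x * (y * z)⁻¹ = y * (z * φ x * z⁻¹) * y⁻¹ := by group
            _ = _ := by rw [f, e]; exact congrArg φ (by group)
        inv_mem' := by
          rintro a ⟨y, hy, e⟩
          refine ⟨y⁻¹, Y.inv_mem hy, fun x => ?_⟩
          have := e (a⁻¹ * x * a)
          rw [show a * (a⁻¹ * x * a) * a⁻¹ = x by group] at this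
          rw [← this, inv_inv, inv_inv]; group }
    have hY' : IsPGroup 2 Y' := by
      rintro ⟨a, y, hy, e⟩
      obtain ⟨k, hk⟩ := hY ⟨y, hy⟩
      have hk' : y ^ 2 ^ k = 1 := congrArg Subtype.val hk
      have hp : ∀ (n : ℕ) x, y ^ n * φ x * (y ^ n)⁻¹ = φ (a ^ n * x * (a ^ n)⁻¹) := by
        intro n
        induction n with
        | zero => simp
        | succ n ih =>
          intro x
          calc y ^ (n + 1) * φ x * (y ^ (n + 1))⁻¹ = y * (y ^ n * φ x * (y ^ n)⁻¹) * y⁻¹ := by group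
            _ = _ := by rw [ih, e]; congr 1; group
      have hz : a ^ 2 ^ k ∈ center Co0 := mem_center_iff.2 fun x => by
        have := hp (2 ^ k) x
        rw [hk', one_mul, inv_one, mul_one] at this
        exact eq_mul_inv_iff_mul_eq.1 (hφ this)
      refine ⟨k + 1, Subtype.ext ?_⟩
      show a ^ 2 ^ (k + 1) = 1
      rw [pow_succ, pow_mul, pow_two]
      rcases mem_center_Co0.1 hz with h | h <;> rw [h]
      · exact one_mul 1
      · exact negElt_mul_self
    obtain ⟨b, hb⟩ := exists_conj_le_N0 hY'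
    refine ⟨φ b, mem_centralizer_singleton_iff.2 (by rw [← map_mul, ← map_mul, negElt_comm]), ?_⟩
    rintro _ ⟨y, hy, rfl⟩
    obtain ⟨a, ha⟩ := hH y (hYt hy)
    obtain ⟨d, σ, e⟩ := hb a ⟨y, hy, ha⟩
    refine mem_normalizer_fintype ?_
    rintro _ ⟨_, ⟨w, rfl⟩, rfl⟩
    have : φ b * y * (φ b)⁻¹ * φ (sg w) * (φ b * y * (φ b)⁻¹)⁻¹ = φ (sg (σ • w)) := by
      calc φ b * y * (φ b)⁻¹ * φ (sg w) * (φ b * y * (φ b)⁻¹)⁻¹
          = φ b * (y * φ (b⁻¹ * sg w * b) * y⁻¹) * (φ b)⁻¹ := by
            rw [map_mul, map_mul, map_inv]; group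
        _ = _ := by
            rw [ha, ← map_inv, ← map_mul, ← map_mul, ← mono_conj_sg d, ← e]
            exact congrArg φ (by group)
    exact this ▸ mV _

omit hφ in
theorem normal_of_standard (hO : oddCore G = ⊥) (A : Subgroup G) (hA : IsStandardSubgroup A)
    (hAX : Nonempty (A ≃* Co0)) (hR : ∀ R : Sylow 2 (centralizer (A : Set G)),
      IsCyclic (R : Subgroup (centralizer (A : Set G)))) : A.Normal := by
  obtain ⟨e⟩ := hAX
  let φ : Co0 →* G := A.subtype.comp e.symm.toMonoidHom
  have hφ : Function.Injective φ := A.subtype_injective.comp e.symm.injective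
  have mA : ∀ x, φ x ∈ A := fun x => (e.symm x).2
  have sA : ∀ a ∈ A, ∃ x, φ x = a := fun a ha => ⟨e ⟨a, ha⟩, by simp [φ]⟩
  have tt : φ negElt * φ negElt = 1 := by rw [← map_mul, negElt_mul_self, map_one]
  have t1 : φ negElt ≠ 1 := fun h => negElt_ne_one (hφ (by rw [h, map_one]))
  have ot : orderOf (φ negElt) = 2 := orderOf_eq_prime (by rw [pow_two, tt]) t1
  have tK : φ negElt ∈ centralizer (A : Set G) := fun a ha => by
    obtain ⟨x, rfl⟩ := sA a ha
    rw [← map_mul, ← map_mul, negElt_comm]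
  have hN : centralizer {φ negElt} ≤ normalizer (A : Set G) := by
    intro g hg
    rw [hA.2.2.2]
    by_contra hc
    have h1 := hA.2.1.2 g hc
    have h2 : φ negElt ∈ centralizer (A : Set G) ⊓
        (centralizer (A : Set G)).map (MulAut.conj g).toMonoidHom :=
      ⟨tK, _, tK, mul_inv_eq_iff_eq_mul.2 (mem_centralizer_singleton_iff.1 hg)⟩
    have h3 := orderOf_dvd_natCard _ h2
    rw [ot] at h3
    exact (Nat.not_even_iff_odd.2 h1) (even_iff_two_dvd.2 h3)
  have hi : IsIsolated (φ negElt) := by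
    refine isolated_neg hφ (fun h hh => ?_) (fun k h1 h2 => ?_)
    · obtain ⟨a, ha⟩ := aut_inner
        (e.symm.trans ((A.normalizerMonoidHom ⟨h, hN hh⟩).trans e))
      refine ⟨a, fun x => ?_⟩
      rw [← ha]
      simp [φ]
    · have kK : k ∈ centralizer (A : Set G) := fun a ha => by
        obtain ⟨x, rfl⟩ := sA a ha
        exact (h2 x).symm
      let E : Subgroup (centralizer (A : Set G)) := closure {⟨k, kK⟩, ⟨_, tK⟩}
      have hE : ∀ x ∈ E, x * x = 1 := by
        have hle : E ≤ centralizer {⟨k, kK⟩, ⟨_, tK⟩} := by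
          rw [closure_le]
          rintro x (rfl | rfl) y (rfl | rfl)
          · rfl
          · exact Subtype.ext (h2 _).symm
          · exact Subtype.ext (h2 _)
          · rfl
        have hcomm : ∀ x ∈ E, ∀ y ∈ E, x * y = y * x := by
          intro x hx y hy
          have : E ≤ centralizer {y} := (closure_le _).2 fun z hz =>
            mem_centralizer_singleton_iff.2 (hle hy z hz)
          exact mem_centralizer_singleton_iff.1 (this hx)
        intro x hx
        induction hx using closure_induction with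
        | mem x hx =>
          rcases hx with rfl | rfl
          · exact Subtype.ext h1
          · exact Subtype.ext tt
        | one => exact one_mul 1
        | mul x y hx hy ex ey =>
          rw [mul_assoc, ← mul_assoc y, hcomm y hy x hx, mul_assoc, ey, mul_one, ex]
        | inv x _ ex => rw [← mul_inv_rev, ex, inv_one]
      obtain ⟨R, hR'⟩ := (pg_sq hE).exists_le_sylow
      have hc := hR R
      by_contra hne
      push Not at hne
      have m1 : (⟨k, kK⟩ : centralizer (A : Set G)) ∈ R := hR' (subset_closure (by simp))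
      have m2 : (⟨_, tK⟩ : centralizer (A : Set G)) ∈ R := hR' (subset_closure (by simp))
      let _ : Fintype R := Fintype.ofFinite _
      classical
      have := IsCyclic.card_pow_eq_one_le (α := R) (n := 2) (by norm_num)
      have h3 : ({1, ⟨_, m1⟩, ⟨_, m2⟩} : Finset R) ⊆ Finset.univ.filter fun a : R => a ^ 2 = 1 := by
        intro x hx
        simp only [Finset.mem_insert, Finset.mem_singleton] at hx
        rcases hx with rfl | rfl | rfl
        · simp
        · simpa [pow_two, Subtype.ext_iff] using h1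
        · simpa [pow_two, Subtype.ext_iff] using tt
      have h4 := Finset.card_le_card h3
      rw [Finset.card_eq_three.2 ⟨_, _, _, ?_, ?_, ?_, rfl⟩] at h4
      · have h5 : 3 ≤ 2 := h4.trans (by convert this; rfl)
        omega
      · exact fun h => hne.1 (congrArg (fun x : R => x.1.1) h).symm
      · exact fun h => t1 (congrArg (fun x : R => x.1.1) h).symm
      · exact fun h => hne.2 (congrArg (fun x : R => x.1.1) h)
  rw [← normalizer_eq_top_iff, eq_top_iff]
  intro g _
  exact hN (mem_centralizer_singleton_iff.2 (commute_of_isolated hO ot hi g))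

end C0
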